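import Mathlib
import Cfsg.Agent.Lib.Chars.Induced

/-!
Induced functions: linearity, push-pull, transitivity, counting formulas.
-/

set_option autoImplicit false

namespace CfsgLib.BrauerInd

open Cfsg CfsgLib.Chars

universe u

variable {G : Type u} [Group G]

open Classical in
theorem ext0_eq (H : Subgroup G) (θ : H → ℂ) (g : G) :
    extendByZero H θ g = if h : g ∈ H then θ ⟨g, h⟩ else 0 := extendByZero_apply H θ g

theorem ext0_add (H : Subgroup G) (θ ψ : H → ℂ) (g : G) :
    extendByZero H (θ + ψ) g = extendByZero H θ g + extendByZero H ψ g := by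
  classical
  simp only [ext0_eq]
  split_ifs <;> simp

theorem ext0_smul (H : Subgroup G) (c : ℂ) (θ : H → ℂ) (g : G) :
    extendByZero H (c • θ) g = c * extendByZero H θ g := by
  classical
  simp only [ext0_eq]
  split_ifs <;> simp

variable [Fintype G]

theorem indFun_add (H : Subgroup G) (θ ψ : H → ℂ) : indFun H (θ + ψ) = indFun H θ + indFun H ψ := by
  funext g
  simp [indFun, ext0_add, Finset.sum_add_distrib, mul_add]

theorem indFun_smul (H : Subgroup G) (c : ℂ) (θ : H → ℂ) : indFun H (c • θ) = c • indFun H θ := by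
  funext g
  simp [indFun, ext0_smul, Finset.mul_sum, mul_left_comm]

/-- `indFun` as a linear map. -/
noncomputable def indLin (H : Subgroup G) : (H → ℂ) →ₗ[ℂ] (G → ℂ) where
  toFun := indFun H
  map_add' := indFun_add H
  map_smul' := indFun_smul H

theorem indLin_apply (H : Subgroup G) (θ : H → ℂ) : indLin H θ = indFun H θ := rfl

theorem indFun_sum (H : Subgroup G) {ι : Type*} (s : Finset ι) (θ : ι → H → ℂ) :
    indFun H (∑ i ∈ s, θ i) = ∑ i ∈ s, indFun H (θ i) := map_sum (indLin H) θ s

theorem indFun_list_sum (H : Subgroup G) (l : List (H → ℂ)) :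
    indFun H l.sum = (l.map (indFun H)).sum := map_list_sum (indLin H) l

/-- Push-pull formula. -/
theorem indFun_mul (H : Subgroup G) (θ : H → ℂ) {f : G → ℂ} (hf : IsClassFunction G f) :
    indFun H θ * f = indFun H (fun h => θ h * f h) := by
  classical
  funext g
  simp only [Pi.mul_apply, indFun, mul_assoc, Finset.sum_mul]
  congr 1
  refine Finset.sum_congr rfl fun x _ => ?_
  simp only [← mul_assoc, ext0_eq]
  have : f g = f (x⁻¹ * g * x) := by
    have := hf g x⁻¹
    rw [inv_inv] at this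
    exact this.symm
  split_ifs with h
  · rw [this]
  · simp

/-- Transitivity of induction along an injective homomorphism onto a subgroup. -/
theorem indFun_trans (H : Subgroup G) [Fintype H] (B : Subgroup H) (θ : B → ℂ) (θ' : ↥(B.map H.subtype) → ℂ)
    (hθ : ∀ b : B, θ' ⟨((b : H) : G), (b : H), b.2, rfl⟩ = θ b) :
    indFun H (indFun B θ) = indFun (B.map H.subtype) θ' := by
  classical
  funext g
  have key : ∀ x : G, extendByZero H (indFun B θ) x = (Nat.card B : ℂ)⁻¹ * ∑ h : H, extendByZero (B.map H.subtype) θ' ((h : G)⁻¹ * x * h) := by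
    intro x
    rw [ext0_eq]
    split_ifs with hx
    · simp only [indFun]
      congr 1
      refine Finset.sum_congr rfl fun h _ => ?_
      rw [ext0_eq, ext0_eq]
      by_cases hb : h⁻¹ * ⟨x, hx⟩ * h ∈ B
      · rw [dif_pos hb, dif_pos ⟨_, hb, rfl⟩]
        exact (hθ ⟨_, hb⟩).symm
      · rw [dif_neg hb, dif_neg]
        rintro ⟨b, hbB, hbe⟩
        exact hb (by rwa [show h⁻¹ * ⟨x, hx⟩ * h = b from Subtype.ext hbe.symm])
    · symm
      refine mul_eq_zero_of_right _ (Finset.sum_eq_zero fun h _ => ?_)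
      rw [ext0_eq, dif_neg]
      rintro ⟨b, -, hbe⟩
      apply hx
      rw [show x = (h : G) * (H.subtype b) * (h : G)⁻¹ by rw [hbe]; group]
      exact mul_mem (mul_mem h.2 b.2) (inv_mem h.2)
  simp only [indFun] at key ⊢
  rw [Finset.sum_congr rfl (fun x _ => key _), ← Finset.mul_sum, Finset.sum_comm]
  have h2 : ∀ h : H, ∑ x : G, extendByZero (B.map H.subtype) θ' ((h : G)⁻¹ * (x⁻¹ * g * x) * h) = ∑ x : G, extendByZero (B.map H.subtype) θ' (x⁻¹ * g * x) := fun h =>
    Fintype.sum_equiv (Equiv.mulRight (h : G)) _ _ fun x => by simp [mul_assoc]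
  rw [Finset.sum_congr rfl (fun h _ => h2 h), Finset.sum_const, Finset.card_univ, nsmul_eq_mul,
    Subgroup.card_map_of_injective H.subtype_injective, ← Nat.card_eq_fintype_card]
  have hH : (Nat.card H : ℂ) ≠ 0 := Nat.cast_ne_zero.2 Nat.card_pos.ne'
  field_simp

/-- The number of elements conjugating `g` into `S`. -/
noncomputable def conjCount (S : G → Prop) (g : G) : ℕ := Nat.card {y : G // S (y⁻¹ * g * y)}

theorem conjCount_eq_sum (S : G → Prop) [DecidablePred S] (g : G) :
    (conjCount S g : ℂ) = ∑ y : G, if S (y⁻¹ * g * y) then (1 : ℂ) else 0 := by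
  rw [conjCount, Finset.sum_boole, ← Fintype.card_subtype, Nat.card_eq_fintype_card]

theorem indFun_indicator (H : Subgroup G) (S : G → Prop) [DecidablePred S] (hS : ∀ x, S x → x ∈ H) (g : G) :
    indFun H (fun h : H => if S h then (1 : ℂ) else 0) g = (Nat.card H : ℂ)⁻¹ * (conjCount S g : ℂ) := by
  classical
  rw [conjCount_eq_sum]
  simp only [indFun]
  congr 1
  refine Finset.sum_congr rfl fun y _ => ?_
  rw [ext0_eq]
  split_ifs with h1 h2 h2
  · rfl
  · rfl
  · exact absurd (hS _ h2) h1
  · rfl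

/-- A count invariant under right translation by `K` is a multiple of `|K|`. -/
theorem conjCount_eq_cosets (S : G → Prop) (K : Subgroup G) (g : G)
    (hK : ∀ y : G, ∀ k ∈ K, S (y⁻¹ * g * y) → S ((y * k)⁻¹ * g * (y * k))) :
    conjCount S g = Nat.card K * Nat.card {q : G ⧸ K // S (q.out⁻¹ * g * q.out)} := by
  have e : {y : G | S (y⁻¹ * g * y)} = QuotientGroup.mk ⁻¹' {q : G ⧸ K | S (q.out⁻¹ * g * q.out)} := by
    ext y
    obtain ⟨k, hk⟩ := QuotientGroup.mk_out_eq_mul K y
    simp only [Set.mem_setOf_eq, Set.mem_preimage]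
    rw [hk]
    refine ⟨hK y k k.2, fun h => ?_⟩
    have := hK (y * k) (k : G)⁻¹ (inv_mem k.2) h
    rwa [mul_inv_cancel_right] at this
  show Nat.card ↥{y : G | S (y⁻¹ * g * y)} = _
  rw [e, Nat.card_congr (QuotientGroup.preimageMkEquivSubgroupProdSet K _), Nat.card_prod]
  rfl

theorem indFun_one_eq_fixed (H : Subgroup G) (g : G) :
    indFun H (fun _ => (1 : ℂ)) g = (Nat.card (MulAction.fixedBy (G ⧸ H) g) : ℂ) := by
  classical
  have h := indFun_indicator H (fun x => x ∈ H) (fun x hx => hx) g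
  rw [show (fun _ : H => (1 : ℂ)) = (fun x : H => if (x : G) ∈ H then (1 : ℂ) else 0) from funext fun x => (if_pos x.2).symm, h,
    conjCount_eq_cosets _ H g (fun y k hk hy => by
      rw [show (y * k)⁻¹ * g * (y * k) = k⁻¹ * (y⁻¹ * g * y) * k by group]
      exact mul_mem (mul_mem (inv_mem hk) hy) hk)]
  have e : Nat.card {q : G ⧸ H // q.out⁻¹ * g * q.out ∈ H} = Nat.card (MulAction.fixedBy (G ⧸ H) g) := by
    refine Nat.card_congr (Equiv.subtypeEquivRight fun q => ?_)
    conv_rhs => rw [MulAction.mem_fixedBy, ← QuotientGroup.out_eq' q, MulAction.Quotient.smul_mk, QuotientGroup.eq, smul_eq_mul]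
    rw [← inv_mem_iff]
    simp [mul_assoc]
  rw [e, Nat.cast_mul, ← mul_assoc, inv_mul_cancel₀ (Nat.cast_ne_zero.2 Nat.card_pos.ne'), one_mul]

omit [Fintype G] in
theorem exists_list_of_mem_closure {ι : Type*} {F : ι → G → ℂ} {f : G → ℂ}
    (h : f ∈ AddSubgroup.closure (Set.range F)) :
    ∃ l : List (ι × ℤ), f = (l.map fun t => (t.2 : ℂ) • F t.1).sum := by
  induction h using AddSubgroup.closure_induction with
  | mem x hx => obtain ⟨i, rfl⟩ := hx; exact ⟨[(i, 1)], by simp⟩
  | zero => exact ⟨[], by simp⟩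
  | add x y _ _ hx hy =>
    obtain ⟨l, rfl⟩ := hx
    obtain ⟨l', rfl⟩ := hy
    exact ⟨l ++ l', by simp⟩
  | neg x hm hx =>
    obtain ⟨l, rfl⟩ := hx
    refine ⟨l.map fun t => (t.1, -t.2), ?_⟩
    clear hm
    induction l with
    | nil => simp
    | cons a l ih =>
      simp only [List.map_cons, List.sum_cons, neg_add] at ih ⊢
      rw [ih]
      simp

end CfsgLib.BrauerInd
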