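import Mathlib
import Cfsg.Agent.Lib.BrauerInd.Basic

/-!
The functions counting conjugates generating a given cyclic subgroup (Artin induction).
-/

set_option autoImplicit false

namespace CfsgLib.BrauerInd

open Cfsg CfsgLib.Chars

universe u

variable {G : Type u} [Group G] [Fintype G]

/-- Number of elements conjugating `g` to a generator of `A`. -/
noncomputable def genCount (A : Subgroup G) : G → ℂ :=
  fun g => (conjCount (fun x => Subgroup.zpowers x = A) g : ℂ)

open Classical in
theorem genCount_sum (A : Subgroup G) (g : G) :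
    (Nat.card A : ℂ) * indFun A (fun _ => (1 : ℂ)) g = ∑ B ∈ Finset.univ.filter (fun B => B ≤ A), genCount B g := by
  rw [show (fun _ : A => (1 : ℂ)) = (fun x : A => if (x : G) ∈ A then (1 : ℂ) else 0) from funext fun x => (if_pos x.2).symm,
    indFun_indicator A (fun x => x ∈ A) (fun x hx => hx), ← mul_assoc,
    mul_inv_cancel₀ (Nat.cast_ne_zero.2 Nat.card_pos.ne'), one_mul, conjCount_eq_sum]
  simp only [genCount, conjCount_eq_sum]
  rw [Finset.sum_comm]
  refine Finset.sum_congr rfl fun y _ => ?_
  rw [Finset.sum_ite_eq]
  simp [Subgroup.zpowers_le]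

theorem genCount_mul_mem (R : AddSubgroup (G → ℂ)) {f : G → ℂ}
    (h : ∀ A : Subgroup G, IsCyclic A → indFun A (fun _ => (1 : ℂ)) * f ∈ R) (A : Subgroup G) :
    genCount A * f ∈ R := by
  classical
  induction hn : Nat.card A using Nat.strong_induction_on generalizing A with
  | _ n ih =>
    by_cases hA : IsCyclic A
    · have e : genCount A * f = (Nat.card A) • (indFun A (fun _ => (1 : ℂ)) * f) -
          ∑ B ∈ (Finset.univ.filter (fun B => B ≤ A)).erase A, genCount B * f := by
        funext g
        have h1 := genCount_sum A g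
        rw [← Finset.add_sum_erase _ _ (show A ∈ Finset.univ.filter (fun B => B ≤ A) from Finset.mem_filter.2 ⟨Finset.mem_univ A, le_refl A⟩)] at h1
        simp only [Pi.mul_apply, Pi.sub_apply, Pi.smul_apply, Finset.sum_apply, nsmul_eq_mul, Pi.natCast_apply, ← Finset.sum_mul]
        linear_combination -f g * h1
      rw [e]
      refine sub_mem (nsmul_mem (h A hA) _) (sum_mem fun B hB => ?_)
      obtain ⟨hne, hB⟩ := Finset.mem_erase.1 hB
      obtain ⟨-, hle⟩ := Finset.mem_filter.1 hB
      refine ih _ ?_ B rfl
      subst hn
      exact lt_of_le_of_ne (Subgroup.card_le_of_le hle) fun e => hne (Subgroup.eq_of_le_of_card_ge hle e.ge)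
    · have e : genCount A * f = 0 := by
        funext g
        have : conjCount (fun x => Subgroup.zpowers x = A) g = 0 := by
          rw [conjCount, Nat.card_eq_zero]
          left
          exact ⟨fun y => hA (y.2 ▸ inferInstance)⟩
        simp [genCount, this]
      rw [e]; exact zero_mem _

/-- Artin's formula. -/
theorem sum_genCount (h : Subgroup G → ℂ) (g : G) :
    ∑ A : Subgroup G, h A * genCount A g = ∑ y : G, h (Subgroup.zpowers (y⁻¹ * g * y)) := by
  classical
  simp only [genCount, conjCount_eq_sum, Finset.mul_sum]
  rw [Finset.sum_comm]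
  refine Finset.sum_congr rfl fun y _ => ?_
  simp

end CfsgLib.BrauerInd
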