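import Mathlib
import Cfsg.Agent.Lib.BrauerInd.Artin
import Cfsg.Agent.Lib.Blocks.PPart
import Cfsg.Agent.S0870

/-!
Quasi-elementary subgroups and the local form of Solomon's theorem.
-/

set_option autoImplicit false

namespace CfsgLib.BrauerInd

open Cfsg CfsgLib.Chars

universe u

variable {G : Type u} [Group G]

/-- `H` has a cyclic normal `p'`-subgroup of `p`-power index. -/
def IsQE (p : ℕ) (H : Subgroup G) : Prop :=
  ∃ C : Subgroup G, C ≤ H ∧ H ≤ Subgroup.normalizer (C : Set G) ∧ IsCyclic C ∧ Nat.Coprime (Nat.card C) p ∧ ∃ k : ℕ, C.relIndex H = p ^ k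

section Generic

variable {X : Type*}

theorem closure_mul_mem {R : Type*} [CommRing R] {S : Set R} {f g : R}
    (h : ∀ a ∈ S, ∀ b ∈ S, a * b ∈ AddSubgroup.closure S)
    (hf : f ∈ AddSubgroup.closure S) (hg : g ∈ AddSubgroup.closure S) : f * g ∈ AddSubgroup.closure S := by
  induction hf, hg using AddSubgroup.closure_induction₂ with
  | mem a b ha hb => exact h a ha b hb
  | zero_left b hb => rw [zero_mul]; exact zero_mem _
  | zero_right a ha => rw [mul_zero]; exact zero_mem _
  | add_left a b c _ _ _ h1 h2 => rw [add_mul]; exact add_mem h1 h2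
  | add_right a b c _ _ _ h1 h2 => rw [mul_add]; exact add_mem h1 h2
  | neg_left a b _ _ h1 => rw [neg_mul]; exact neg_mem h1
  | neg_right a b _ _ h1 => rw [mul_neg]; exact neg_mem h1

/-- In a ring of integer functions without unit, local units give a global approximate unit. -/
theorem exists_approx_unit [Fintype X] {p : ℕ} (hp : p.Prime) (R : AddSubgroup (X → ℤ))
    (hmul : ∀ f ∈ R, ∀ g ∈ R, f * g ∈ R) (h : ∀ x, ∃ f ∈ R, ¬ (p : ℤ) ∣ f x) (e : ℕ) :
    ∃ g ∈ R, ∀ x, (p : ℤ) ^ e ∣ g x - 1 := by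
  classical
  haveI : Fact p.Prime := ⟨hp⟩
  choose f hf hfx using h
  have hpow : ∀ g ∈ R, ∀ n : ℕ, g ^ (n + 1) ∈ R := fun g hg n => by
    induction n with
    | zero => rwa [zero_add, pow_one]
    | succ n ih => rw [pow_succ]; exact hmul _ ih _ hg
  have hs : ∀ s : Finset X, ∃ g ∈ R, ∀ x ∈ s, (p : ℤ) ∣ g x - 1 := by
    intro s
    induction s using Finset.induction with
    | empty => exact ⟨0, zero_mem _, by simp⟩
    | insert a s _ ih =>
      obtain ⟨g, hg, hgs⟩ := ih
      have hu : f a ^ (p - 1) ∈ R := by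
        have := hpow _ (hf a) (p - 2)
        rwa [show p - 2 + 1 = p - 1 by have := hp.two_le; omega] at this
      refine ⟨g + f a ^ (p - 1) - g * f a ^ (p - 1), sub_mem (add_mem hg hu) (hmul _ hg _ hu), fun x hx => ?_⟩
      simp only [Pi.add_apply, Pi.sub_apply, Pi.mul_apply, Pi.pow_apply]
      rw [show g x + f a x ^ (p - 1) - g x * f a x ^ (p - 1) - 1 = (g x - 1) * (1 - f a x ^ (p - 1)) by ring]
      rcases Finset.mem_insert.1 hx with rfl | hx
      · refine Dvd.dvd.mul_left ?_ _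
        rw [← ZMod.intCast_zmod_eq_zero_iff_dvd]
        push_cast
        rw [ZMod.pow_card_sub_one_eq_one, sub_self]
        rw [ne_eq, ZMod.intCast_zmod_eq_zero_iff_dvd]
        exact hfx x
      · exact (hgs x hx).mul_right _
  obtain ⟨g, hg, hg1⟩ := hs Finset.univ
  obtain ⟨n, hn⟩ : ∃ n, p ^ e = n + 1 := ⟨p ^ e - 1, by have := pow_pos hp.pos e; omega⟩
  refine ⟨g ^ (p ^ e), hn ▸ hpow g hg n, fun x => ?_⟩
  have := dvd_sub_pow_of_dvd_sub (hg1 x (Finset.mem_univ x)) e
  rw [one_pow] at this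
  exact (pow_dvd_pow _ e.le_succ).trans (by simpa using this)

end Generic

variable [Finite G]

theorem mem_of_coprime_pow {p : ℕ} (hp : p.Prime) {C H : Subgroup G} (hn : H ≤ Subgroup.normalizer (C : Set G))
    {k : ℕ} (hk : C.relIndex H = p ^ k) {w : G} (hw : w ∈ H) (hord : ¬ p ∣ orderOf w) : w ∈ C := by
  haveI : (C.subgroupOf H).Normal := Subgroup.normal_subgroupOf_of_le_normalizer hn
  have h1 := (C.subgroupOf H).pow_index_mem ⟨w, hw⟩
  rw [show (C.subgroupOf H).index = p ^ k from hk, Subgroup.mem_subgroupOf] at h1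
  have h2 : w ∈ Subgroup.zpowers (w ^ p ^ k) := by
    obtain ⟨m, hm⟩ := exists_pow_eq_self_of_coprime (x := w) (Nat.Coprime.pow_left k (hp.coprime_iff_not_dvd.2 hord))
    exact ⟨(m : ℤ), by simpa using hm⟩
  exact Subgroup.zpowers_le.2 h1 h2

theorem isQE_of_le {p : ℕ} (hp : p.Prime) {H U : Subgroup G} (hH : IsQE p H) (hU : U ≤ H) : IsQE p U := by
  obtain ⟨C, hCH, hn, hc, hcop, k, hk⟩ := hH
  haveI := hc
  refine ⟨C ⊓ U, inf_le_right, fun x hx => ?_, isCyclic_of_injective (Subgroup.inclusion (inf_le_left : C ⊓ U ≤ C)) (Subgroup.inclusion_injective _),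
    hcop.coprime_dvd_left (Subgroup.card_dvd_of_le inf_le_left), ?_⟩
  · refine Subgroup.mem_normalizer_iff.2 fun y => ?_
    have h1 := Subgroup.mem_normalizer_iff.1 (hn (hU hx)) y
    have h2 : y ∈ U ↔ x * y * x⁻¹ ∈ U := by
      rw [Subgroup.mul_mem_cancel_right _ (inv_mem hx), Subgroup.mul_mem_cancel_left _ hx]
    exact and_congr h1 h2
  · have hd : (C ⊓ U).relIndex U ∣ p ^ k := by
      rw [Subgroup.inf_relIndex_right, ← hk]
      haveI : (C.subgroupOf H).Normal := Subgroup.normal_subgroupOf_of_le_normalizer hn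
      have := Subgroup.relIndex_dvd_index_of_normal (C.subgroupOf H) (U.subgroupOf H)
      rwa [Subgroup.relIndex_subgroupOf hU] at this
    obtain ⟨j, -, hj⟩ := (Nat.dvd_prime_pow hp).1 hd
    exact ⟨j, hj⟩

theorem isQE_cyclic {p : ℕ} (hp : p.Prime) (A : Subgroup G) [hA : IsCyclic A] : IsQE p A := by
  classical
  obtain ⟨⟨g, hg⟩, hgen⟩ := hA.exists_generator
  obtain ⟨a, s, has, hc, ⟨k, hk⟩, hs⟩ := CfsgLib.Blocks.exists_pPart hp g
  obtain ⟨t, ht⟩ := CfsgLib.Blocks.pPart_eq_pow hp has hc ⟨k, hk⟩ hs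
  have hAg : A = Subgroup.zpowers g := le_antisymm (fun x hx => by
    obtain ⟨j, hj⟩ := hgen ⟨x, hx⟩
    exact ⟨j, congrArg Subtype.val hj⟩) (Subgroup.zpowers_le.2 hg)
  have haA : a ∈ A := by rw [ht]; exact pow_mem hg t
  have hsA : s ∈ A := by rw [show s = a⁻¹ * g by rw [← has, inv_mul_cancel_left]]; exact mul_mem (inv_mem haA) hg
  have hle : Subgroup.zpowers s ≤ A := Subgroup.zpowers_le.2 hsA
  refine ⟨Subgroup.zpowers s, hle, fun x hx => ?_, inferInstance, ?_, ?_⟩
  · refine Subgroup.centralizer_le_normalizer _ (Subgroup.mem_centralizer_iff.2 fun y hy => ?_)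
    exact congrArg (fun w : A => (w : G)) (IsMulCommutative.is_comm.comm (⟨y, hle hy⟩ : A) ⟨x, hx⟩)
  · rw [Nat.card_zpowers]; exact Nat.coprime_comm.1 (hp.coprime_iff_not_dvd.2 hs)
  · have h1 := Subgroup.relIndex_mul_relIndex ⊥ (Subgroup.zpowers s) A bot_le hle
    rw [Subgroup.relIndex_bot_left, Subgroup.relIndex_bot_left, Nat.card_zpowers, hAg, Nat.card_zpowers] at h1
    have h2 : orderOf g = p ^ k * orderOf s := by
      rw [← has, hc.orderOf_mul_eq_mul_orderOf_of_coprime, hk]
      rw [hk]; exact (hp.coprime_iff_not_dvd.2 hs).pow_left k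
    refine ⟨k, Nat.eq_of_mul_eq_mul_left (orderOf_pos s) ?_⟩
    rw [mul_comm _ (p ^ k), ← h2, hAg]
    exact h1

theorem exists_qe [Fintype G] (x : G) (p : ℕ) (hp : p.Prime) :
    ∃ H : Subgroup G, IsQE p H ∧ ∃ n : ℕ, indFun H (fun _ => 1) x = (n : ℂ) ∧ ¬ p ∣ n := by
  classical
  haveI : Fact p.Prime := ⟨hp⟩
  obtain ⟨a, s, has, hc, ⟨ka, hka⟩, hs⟩ := CfsgLib.Blocks.exists_pPart hp x
  let C := Subgroup.zpowers s
  let N := Subgroup.normalizer (C : Set G)
  obtain ⟨P⟩ : Nonempty (Sylow p N) := inferInstance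
  let C' : Subgroup N := C.subgroupOf N
  haveI : C'.Normal := Subgroup.normal_subgroupOf_of_le_normalizer le_rfl
  let H' : Subgroup N := (P : Subgroup N) ⊔ C'
  let H : Subgroup G := H'.map N.subtype
  have hHN : H ≤ N := Subgroup.map_subtype_le _
  have hCN : C ≤ N := Subgroup.le_normalizer
  have hCH : C ≤ H := fun c hc => ⟨⟨c, hCN hc⟩, Subgroup.mem_sup_right hc, rfl⟩
  haveI : (C.subgroupOf H).Normal := Subgroup.normal_subgroupOf_of_le_normalizer hHN
  have hq : IsPGroup p (H ⧸ C.subgroupOf H) := by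
    let φ : (P : Subgroup N) →* H ⧸ C.subgroupOf H := (QuotientGroup.mk' _).comp
      { toFun := fun q => ⟨((q : N) : G), (q : N), Subgroup.mem_sup_left q.2, rfl⟩
        map_one' := rfl
        map_mul' := fun _ _ => rfl }
    refine P.2.of_surjective φ fun z => ?_
    induction z using QuotientGroup.induction_on with
    | H z =>
      obtain ⟨y, hy, hyz⟩ := z.2
      obtain ⟨q, hq, c, hcc, rfl⟩ := Subgroup.mem_sup_of_normal_right.1 hy
      refine ⟨⟨q, hq⟩, ?_⟩
      refine QuotientGroup.eq.2 (Subgroup.mem_subgroupOf.2 ?_)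
      show ((q : N) : G)⁻¹ * (z : G) ∈ C
      rw [← hyz]
      show (q : G)⁻¹ * ((q : G) * (c : G)) ∈ C
      rw [inv_mul_cancel_left]
      exact hcc
  obtain ⟨k, hk⟩ := IsPGroup.iff_card.1 hq
  have hk' : C.relIndex H = p ^ k := hk
  have hCcop : Nat.Coprime (Nat.card C) p := by
    rw [Nat.card_zpowers]; exact Nat.coprime_comm.1 (hp.coprime_iff_not_dvd.2 hs)
  refine ⟨H, ⟨C, hCH, hHN, inferInstance, hCcop, k, hk'⟩, _, indFun_one_eq_fixed H x, ?_⟩
  obtain ⟨t, ht⟩ := CfsgLib.Blocks.pPart_eq_pow hp has hc ⟨ka, hka⟩ hs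
  have hsN : s ∈ N := hCN (Subgroup.mem_zpowers s)
  have haN : a ∈ N := Subgroup.centralizer_le_normalizer _ (Subgroup.mem_centralizer_iff.2 fun y hy => by
    obtain ⟨j, rfl⟩ := Subgroup.mem_zpowers_iff.1 hy
    exact ((hc.zpow_right j).eq).symm)
  let a' : N := ⟨a, haN⟩
  let A : Subgroup N := Subgroup.zpowers a'
  have hA : IsPGroup p A := IsPGroup.of_card (n := ka) (by rw [Nat.card_zpowers, Subgroup.orderOf_mk, hka])
  -- the fixed cosets lie in the normalizer
  let ι : N ⧸ H' → G ⧸ H := Quotient.map' (fun n : N => (n : G)) fun u v h => by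
    rw [QuotientGroup.leftRel_apply] at h ⊢
    exact ⟨u⁻¹ * v, h, rfl⟩
  have hι : Function.Injective ι := by
    intro u v
    induction u using QuotientGroup.induction_on with
    | H u => induction v using QuotientGroup.induction_on with
      | H v =>
        intro e
        obtain ⟨w, hw, hwe⟩ := (QuotientGroup.eq (s := H)).1 e
        refine QuotientGroup.eq.2 ?_
        have hwe' : (w : G) = (u : G)⁻¹ * v := hwe
        rwa [show u⁻¹ * v = w from Subtype.ext hwe'.symm]
  have hsact : ∀ q : N ⧸ H', (⟨s, hsN⟩ : N) • q = q := by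
    intro q
    induction q using QuotientGroup.induction_on with
    | H u =>
      refine QuotientGroup.eq.2 (Subgroup.mem_sup_right ?_)
      have h1 : u⁻¹ * ⟨s, hsN⟩ * u ∈ C' := by
        have h := Subgroup.Normal.conj_mem (inferInstance : C'.Normal) ⟨s, hsN⟩ (Subgroup.mem_subgroupOf.2 (Subgroup.mem_zpowers s)) u⁻¹
        rwa [inv_inv] at h
      have h2 := inv_mem h1
      simpa [smul_eq_mul, mul_assoc] using h2
  have hιs : ∀ (q : N ⧸ H'), x • ι q = ι (a' • q) := by
    intro q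
    conv_rhs => rw [← hsact q, ← mul_smul]
    induction q using QuotientGroup.induction_on with
    | H u =>
      show (((x * (u : G) : G)) : G ⧸ H) = (((a * s) * (u : G) : G) : G ⧸ H)
      rw [has]
  have key : Nat.card (MulAction.fixedBy (G ⧸ H) x) = Nat.card (MulAction.fixedPoints A (N ⧸ H')) := by
    let F : MulAction.fixedPoints A (N ⧸ H') → MulAction.fixedBy (G ⧸ H) x := fun q => ⟨ι q.1, by
      rw [MulAction.mem_fixedBy, hιs]
      exact congrArg ι (q.2 ⟨a', Subgroup.mem_zpowers a'⟩)⟩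
    refine (Nat.card_congr (Equiv.ofBijective F ⟨?_, ?_⟩)).symm
    · intro u v e; exact Subtype.ext (hι (congrArg Subtype.val e))
    · rintro ⟨z, hz⟩
      induction z using QuotientGroup.induction_on with
      | H g =>
        rw [MulAction.mem_fixedBy, MulAction.Quotient.smul_mk, QuotientGroup.eq, smul_eq_mul, ← inv_mem_iff] at hz
        have hz' : g⁻¹ * x * g ∈ H := by simpa [mul_assoc] using hz
        have hsx : s = a⁻¹ * x := by rw [← has, inv_mul_cancel_left]
        have h1 : g⁻¹ * s * g ∈ H := by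
          rw [hsx, show g⁻¹ * (a⁻¹ * x) * g = (g⁻¹ * a * g)⁻¹ * (g⁻¹ * x * g) by group]
          refine mul_mem (inv_mem ?_) hz'
          have : g⁻¹ * a * g = (g⁻¹ * x * g) ^ t := by
            rw [ht]; simpa [MulAut.conj_apply] using map_pow (MulAut.conj g⁻¹) x t
          rw [this]; exact pow_mem hz' t
        have h2 : g⁻¹ * s * g ∈ C := mem_of_coprime_pow hp hHN hk' h1 (by
          have : orderOf (g⁻¹ * s * g) = orderOf s := by
            have := orderOf_injective (MulAut.conj g⁻¹).toMonoidHom (MulEquiv.injective _) s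
            simpa using this
          rwa [this])
        have hgN : g⁻¹ ∈ N := by
          have h3 : C.map (MulAut.conj g⁻¹).toMonoidHom = C := by
            refine Subgroup.eq_of_le_of_card_ge ?_ (Subgroup.card_map_of_injective (MulAut.conj g⁻¹).injective).ge
            rw [MonoidHom.map_zpowers, Subgroup.zpowers_le]
            simpa using h2
          refine Subgroup.mem_normalizer_iff.2 fun y => ⟨fun hy => ?_, fun hy => ?_⟩
          · rw [← h3]; exact ⟨y, hy, rfl⟩
          · rw [← h3] at hy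
            obtain ⟨w, hw, hwe⟩ := hy
            have hwe' : g⁻¹ * w * g⁻¹⁻¹ = g⁻¹ * y * g⁻¹⁻¹ := hwe
            rwa [← mul_left_cancel (mul_right_cancel hwe')]
        have hgN' : g ∈ N := by simpa using inv_mem hgN
        refine ⟨⟨((⟨g, hgN'⟩ : N) : N ⧸ H'), ?_⟩, Subtype.ext rfl⟩
        intro b
        obtain ⟨b, hb⟩ := b
        have hfx : a' • ((⟨g, hgN'⟩ : N) : N ⧸ H') = ((⟨g, hgN'⟩ : N) : N ⧸ H') := by
          refine hι ?_
          rw [← hιs]
          show x • ((g : G) : G ⧸ H) = ((g : G) : G ⧸ H)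
          rw [MulAction.Quotient.smul_mk, QuotientGroup.eq, smul_eq_mul, ← inv_mem_iff]
          exact hz
        have : A ≤ MulAction.stabilizer N ((⟨g, hgN'⟩ : N) : N ⧸ H') := Subgroup.zpowers_le.2 hfx
        exact this hb
  rw [key]
  intro hd
  have h := hA.card_modEq_card_fixedPoints (N ⧸ H')
  have hdi : p ∣ Nat.card (N ⧸ H') := (Nat.ModEq.dvd_iff h dvd_rfl).2 hd
  exact P.not_dvd_index (hdi.trans (Subgroup.index_dvd_of_le le_sup_left))

theorem indFun_one_conj [Fintype G] (H : Subgroup G) {x w : G} (h : Subgroup.zpowers x = Subgroup.zpowers w) :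
    indFun H (fun _ => (1 : ℂ)) x = indFun H (fun _ => (1 : ℂ)) w := by
  rw [indFun_one_eq_fixed, indFun_one_eq_fixed]
  congr 1
  refine Nat.card_congr (Equiv.subtypeEquivRight fun q => ?_)
  rw [MulAction.mem_fixedBy, MulAction.mem_fixedBy, ← MulAction.mem_stabilizer_iff, ← MulAction.mem_stabilizer_iff]
  exact ⟨fun hx => Subgroup.zpowers_le.2 hx (h ▸ Subgroup.mem_zpowers w),
    fun hw => Subgroup.zpowers_le.2 hw (h.symm ▸ Subgroup.mem_zpowers x)⟩

/-- The span of the permutation characters on cosets of quasi-elementary subgroups. -/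
noncomputable def qeSpan (G : Type u) [Group G] [Fintype G] (p : ℕ) : AddSubgroup (G → ℂ) :=
  AddSubgroup.closure (Set.range fun H : {H : Subgroup G // IsQE p H} => indFun H.1 (fun _ => (1 : ℂ)))

theorem qeSpan_mul [Fintype G] {p : ℕ} (hp : p.Prime) {f g : G → ℂ} (hf : f ∈ qeSpan G p) (hg : g ∈ qeSpan G p) :
    f * g ∈ qeSpan G p := by
  classical
  refine closure_mul_mem ?_ hf hg
  rintro _ ⟨H, rfl⟩ _ ⟨K, rfl⟩
  obtain ⟨a, ha, e⟩ := Cfsg.Agent.S0870.result H.1 K.1
  show indFun H.1 _ * indFun K.1 _ ∈ _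
  rw [e]
  refine sum_mem fun U _ => ?_
  by_cases h0 : a U = 0
  · rw [h0, Nat.cast_zero, zero_smul]; exact zero_mem _
  · rw [Nat.cast_smul_eq_nsmul]
    refine nsmul_mem ?_ _
    exact AddSubgroup.subset_closure ⟨⟨U, isQE_of_le hp H.2 (ha U h0)⟩, rfl⟩

/-- Solomon's theorem, local form. -/
theorem solomon [Fintype G] (p : ℕ) (hp : p.Prime) :
    ∃ m : ℤ, ¬ (p : ℤ) ∣ m ∧ (fun _ : G => (m : ℂ)) ∈ qeSpan G p := by
  classical
  let cast : (G → ℤ) →+* (G → ℂ) := Pi.ringHom fun g => (Int.castRingHom ℂ).comp (Pi.evalRingHom (fun _ => ℤ) g)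
  have hcast : ∀ (f : G → ℤ) x, cast f x = (f x : ℂ) := fun f x => rfl
  -- integer functions in the span, depending only on the cyclic subgroup
  let R : AddSubgroup (G → ℤ) := (qeSpan G p).comap cast.toAddMonoidHom
  have hinv : ∀ f ∈ qeSpan G p, ∀ x w y : G, Subgroup.zpowers x = Subgroup.zpowers (y⁻¹ * w * y) → f x = f w := by
    intro f hf x w y h
    induction hf using AddSubgroup.closure_induction with
    | mem a ha =>
      obtain ⟨H, rfl⟩ := ha
      show indFun H.1 _ x = indFun H.1 _ w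
      rw [indFun_one_conj H.1 h]
      have := indFun_isClassFunction H.1 (fun _ => (1 : ℂ)) w y⁻¹
      rwa [inv_inv] at this
    | zero => rfl
    | add a b _ _ h1 h2 => simp only [Pi.add_apply, h1, h2]
    | neg a _ h1 => simp only [Pi.neg_apply, h1]
  have hloc : ∀ x, ∃ f ∈ R, ¬ (p : ℤ) ∣ f x := by
    intro x
    obtain ⟨H, hH, n, hn, hnd⟩ := exists_qe x p hp
    refine ⟨fun g => (Nat.card (MulAction.fixedBy (G ⧸ H) g) : ℤ), ?_, ?_⟩
    · show cast _ ∈ qeSpan G p
      refine AddSubgroup.subset_closure ⟨⟨H, hH⟩, funext fun g => ?_⟩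
      rw [hcast]
      exact (indFun_one_eq_fixed H g).trans (by push_cast; rfl)
    · rw [indFun_one_eq_fixed, Nat.cast_inj] at hn
      simpa only [hn, Int.natCast_dvd_natCast] using hnd
  set e := (Nat.card G).factorization p with he
  set n' := Nat.card G / p ^ e with hn'
  have hcard : Nat.card G = p ^ e * n' := (Nat.ordProj_mul_ordCompl_eq_self (Nat.card G) p).symm
  obtain ⟨g, hg, hg1⟩ := exists_approx_unit hp R (fun f hf g hg => by
    show cast (f * g) ∈ qeSpan G p
    rw [map_mul]; exact qeSpan_mul hp hf hg) hloc e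
  choose h hh using hg1
  have hgR : cast g ∈ qeSpan G p := hg
  refine ⟨(n' : ℤ), ?_, ?_⟩
  · rw [Int.natCast_dvd_natCast]
    exact Nat.not_dvd_ordCompl hp Nat.card_pos.ne'
  let val : Subgroup G → ℤ := fun A => if hA : ∃ w, Subgroup.zpowers w = A then h hA.choose else 0
  have hval : ∀ x y : G, val (Subgroup.zpowers (y⁻¹ * x * y)) = h x := by
    intro x y
    have hA : ∃ w, Subgroup.zpowers w = Subgroup.zpowers (y⁻¹ * x * y) := ⟨_, rfl⟩
    simp only [val, dif_pos hA]
    have h1 := hinv _ hgR _ x y hA.choose_spec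
    rw [hcast, hcast, Int.cast_inj] at h1
    have h2 := hh hA.choose
    rw [h1, hh x] at h2
    exact (mul_left_cancel₀ (pow_ne_zero e (by exact_mod_cast hp.ne_zero : (p : ℤ) ≠ 0)) h2).symm
  have h1 : ∀ A : Subgroup G, genCount A ∈ qeSpan G p := fun A => by
    have := genCount_mul_mem (qeSpan G p) (f := 1) (fun A hA => by
      rw [mul_one]; exact AddSubgroup.subset_closure ⟨⟨A, isQE_cyclic hp A (hA := hA)⟩, rfl⟩) A
    rwa [mul_one] at this
  have h2 : (fun x => (Nat.card G : ℂ) * (h x : ℂ)) ∈ qeSpan G p := by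
    have : (fun x => (Nat.card G : ℂ) * (h x : ℂ)) = ∑ A : Subgroup G, val A • genCount A := by
      funext x
      simp only [Finset.sum_apply, Pi.smul_apply, zsmul_eq_mul, Pi.mul_apply, Pi.intCast_apply]
      rw [sum_genCount (fun A => (val A : ℂ)) x]
      simp [hval, Nat.card_eq_fintype_card]
    rw [this]
    exact sum_mem fun A _ => zsmul_mem (h1 A) _
  have h3 : (fun _ : G => (((n' : ℤ)) : ℂ)) = n' • cast g - (fun x => (Nat.card G : ℂ) * (h x : ℂ)) := by
    funext x
    simp only [Pi.sub_apply, Pi.smul_apply, nsmul_eq_mul, Pi.mul_apply, Pi.natCast_apply, hcast, Int.cast_natCast]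
    rw [show g x = 1 + (p : ℤ) ^ e * h x by linear_combination hh x, hcard]
    push_cast
    ring
  rw [h3]
  exact sub_mem (nsmul_mem hgR _) h2

end CfsgLib.BrauerInd
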