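import Mathlib
import Cfsg.Agent.Lib.BrauerInd.Solomon
import Cfsg.Agent.Lib.CharAbelian

/-!
The local form of Brauer's induction theorem.
-/

set_option autoImplicit false

namespace CfsgLib.BrauerInd

open Cfsg CfsgLib.Chars
open scoped ComplexConjugate

universe u

variable {G : Type u} [Group G]

theorem indicator_expand {E A : Type u} [Group E] [Group A] [Fintype A] [DecidableEq A] (hA : ∀ a b : A, a * b = b * a)
    (π : E →* A) (s : A) :
    (fun e : E => if π e = s then (Nat.card A : ℂ) else 0) = ∑ χ : IrrCharacter A, conj ((χ : A → ℂ) s) • fun e : E => (χ : A → ℂ) (π e) := by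
  classical
  funext e
  simp only [Finset.sum_apply, Pi.smul_apply, smul_eq_mul]
  rw [Finset.sum_congr rfl fun χ _ => mul_comm _ _, col_orth]
  have hcen : Subgroup.centralizer ({s} : Set A) = ⊤ := eq_top_iff.2 fun x _ => Subgroup.mem_centralizer_singleton_iff.2 (hA x s)
  have hiff : IsConj s (π e) ↔ π e = s := by
    refine ⟨fun h => ?_, fun h => h ▸ IsConj.refl _⟩
    obtain ⟨c, hc⟩ := isConj_iff.1 h
    rw [← hc, hA c s, mul_inv_cancel_right]
  rw [hcen, Subgroup.card_top]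
  by_cases h : π e = s
  · rw [if_pos h, if_pos (hiff.2 h)]
  · rw [if_neg h, if_neg (mt hiff.1 h)]

variable [Fintype G]

/-- Generators of the integral span of characters induced from `p`-elementary subgroups. -/
abbrev BIndex (G : Type u) [Group G] (p : ℕ) : Type u :=
  {t : (E : Subgroup G) × (E → ℂ) // IsElementary p t.1 ∧ IsCharacter t.1 t.2}

/-- The span with algebraic integer coefficients. -/
noncomputable def bSpan (G : Type u) [Group G] [Fintype G] (p : ℕ) : AddSubgroup (G → ℂ) :=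
  AddSubgroup.closure (Set.range fun t : BIndex G p × {c : ℂ // IsIntegral ℤ c} => t.2.1 • indFun t.1.1.1 t.1.1.2)

theorem smul_indFun_mem {p : ℕ} {E : Subgroup G} (hE : IsElementary p E) {ψ : E → ℂ} (hψ : IsCharacter E ψ) {c : ℂ}
    (hc : IsIntegral ℤ c) : c • indFun E ψ ∈ bSpan G p :=
  AddSubgroup.subset_closure ⟨(⟨⟨E, ψ⟩, hE, hψ⟩, ⟨c, hc⟩), rfl⟩

theorem indFun_indicator_mem {p : ℕ} {E : Subgroup G} (hE : IsElementary p E) {A : Type u} [Group A] [Fintype A] [DecidableEq A]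
    (hA : ∀ a b : A, a * b = b * a) (π : E →* A) (s : A) :
    indFun E (fun e : E => if π e = s then (Nat.card A : ℂ) else 0) ∈ bSpan G p := by
  classical
  rw [indicator_expand hA π s, indFun_sum]
  refine sum_mem fun χ _ => ?_
  rw [indFun_smul]
  exact smul_indFun_mem hE (IsCharacter.comp (isCharacter_irr χ) π)
    ((IsCharacter.isIntegral (isCharacter_irr χ) s).map (starRingEnd ℂ).toIntAlgHom)

theorem bSpan_mul {p : ℕ} {f g : G → ℂ} (hf : f ∈ bSpan G p) (hg : g ∈ bSpan G p) : f * g ∈ bSpan G p := by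
  refine closure_mul_mem ?_ hf hg
  rintro _ ⟨⟨⟨⟨E, ψ⟩, hE, hψ⟩, c, hc⟩, rfl⟩ _ ⟨⟨⟨⟨E', ψ'⟩, hE', hψ'⟩, c', hc'⟩, rfl⟩
  show (c • indFun E ψ) * (c' • indFun E' ψ') ∈ bSpan G p
  rw [smul_mul_smul_comm, indFun_mul E ψ (indFun_isClassFunction E' ψ')]
  exact smul_indFun_mem hE (IsCharacter.mul hψ (IsCharacter.restrict (IsCharacter.indFun E' hψ') E)) (hc.mul hc')

theorem isElementary_zpowers {p : ℕ} (hp : p.Prime) (s : G) : IsElementary p (Subgroup.zpowers s) := by
  obtain ⟨a, b, hab, hc, ⟨k, hk⟩, hb⟩ := CfsgLib.Blocks.exists_pPart hp s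
  obtain ⟨t, ht⟩ := CfsgLib.Blocks.pPart_eq_pow hp hab hc ⟨k, hk⟩ hb
  have hbz : b ∈ Subgroup.zpowers s := by
    rw [show b = a⁻¹ * s by rw [← hab, inv_mul_cancel_left], ht]
    exact mul_mem (inv_mem (pow_mem (Subgroup.mem_zpowers s) t)) (Subgroup.mem_zpowers s)
  refine ⟨⟨b, hbz⟩, Subgroup.mem_center_iff.2 fun g => IsMulCommutative.is_comm.comm _ _, ?_, k, ?_⟩
  · rw [Subgroup.orderOf_mk]; exact Nat.coprime_comm.1 (hp.coprime_iff_not_dvd.2 hb)
  · have h1 := Subgroup.index_mul_card (Subgroup.zpowers (⟨b, hbz⟩ : Subgroup.zpowers s))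
    rw [Nat.card_zpowers, Subgroup.orderOf_mk, Nat.card_zpowers] at h1
    have h2 : orderOf s = p ^ k * orderOf b := by
      rw [← hab, hc.orderOf_mul_eq_mul_orderOf_of_coprime, hk]
      rw [hk]; exact (hp.coprime_iff_not_dvd.2 hb).pow_left k
    rw [h2] at h1
    exact Nat.eq_of_mul_eq_mul_right (orderOf_pos b) h1

theorem exists_local (x : G) (p : ℕ) (hp : p.Prime) :
    ∃ f : G → ℤ, (fun g => (f g : ℂ)) ∈ bSpan G p ∧ ¬ (p : ℤ) ∣ f x := by
  classical
  haveI : Fact p.Prime := ⟨hp⟩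
  obtain ⟨a, s, has, hc, ⟨ka, hka⟩, hs⟩ := CfsgLib.Blocks.exists_pPart hp x
  let C := Subgroup.centralizer ({s} : Set G)
  obtain ⟨P₀⟩ : Nonempty (Sylow p C) := inferInstance
  let P : Subgroup G := (P₀ : Subgroup C).map C.subtype
  have hPC : ∀ q ∈ P, q * s = s * q := by
    rintro _ ⟨q, -, rfl⟩
    exact Subgroup.mem_centralizer_singleton_iff.1 q.2
  have hPp : IsPGroup p P := P₀.2.map _
  let A := Subgroup.zpowers s
  have hAP : ∀ u ∈ A, ∀ q ∈ P, u * q = q * u := fun u hu q hq => by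
    obtain ⟨j, rfl⟩ := Subgroup.mem_zpowers_iff.1 hu
    exact ((Commute.zpow_left (show Commute s q from (hPC q hq).symm) j).eq)
  let π₀ : A × P →* G :=
    { toFun := fun z => (z.1 : G) * z.2
      map_one' := by simp
      map_mul' := fun z w => by
        simp only [Prod.fst_mul, Prod.snd_mul, Subgroup.coe_mul]
        calc (z.1 : G) * w.1 * (z.2 * w.2) = z.1 * ((w.1 : G) * z.2) * w.2 := by group
          _ = z.1 * ((z.2 : G) * w.1) * w.2 := by rw [hAP _ w.1.2 _ z.2.2]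
          _ = _ := by group }
  have hinj : Function.Injective π₀ := by
    rw [injective_iff_map_eq_one]
    rintro ⟨⟨u, hu⟩, ⟨q, hq⟩⟩ h
    have h' : u * q = 1 := h
    obtain ⟨j, hj⟩ := IsPGroup.iff_orderOf.1 hPp ⟨q, hq⟩
    rw [Subgroup.orderOf_mk] at hj
    have h1 : orderOf q ∣ orderOf s := by
      rw [← Nat.card_zpowers s, eq_inv_of_mul_eq_one_right h', orderOf_inv, ← Subgroup.orderOf_mk u hu]
      exact orderOf_dvd_natCard _
    have hq1 : q = 1 := orderOf_eq_one_iff.1 (Nat.eq_one_of_dvd_coprimes ((hp.coprime_iff_not_dvd.2 hs).pow_left j) (hj ▸ dvd_rfl) h1)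
    subst hq1
    rw [mul_one] at h'
    simp [Prod.ext_iff, Subtype.ext_iff, h']
  let E : Subgroup G := π₀.range
  let e : A × P ≃* E := MonoidHom.ofInjective hinj
  haveI : Fintype A := Fintype.ofFinite A
  have hcardE : Nat.card E = Nat.card A * Nat.card P := by rw [← Nat.card_congr e.toEquiv, Nat.card_prod]
  have hE : IsElementary p E := by
    refine ⟨e (⟨s, Subgroup.mem_zpowers s⟩, 1), ?_, ?_, ?_⟩
    · refine Subgroup.mem_center_iff.2 fun g => ?_
      obtain ⟨z, rfl⟩ := e.surjective g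
      rw [← map_mul, ← map_mul]
      congr 1
      refine Prod.ext ?_ (by simp)
      exact IsMulCommutative.is_comm.comm _ _
    · rw [MulEquiv.orderOf_eq, Prod.orderOf, orderOf_one, Nat.lcm_one_right, Subgroup.orderOf_mk]
      exact Nat.coprime_comm.1 (hp.coprime_iff_not_dvd.2 hs)
    · obtain ⟨j, hj⟩ := IsPGroup.iff_card.1 hPp
      refine ⟨j, ?_⟩
      have h1 := Subgroup.index_mul_card (Subgroup.zpowers (e (⟨s, Subgroup.mem_zpowers s⟩, 1)))
      rw [Nat.card_zpowers, MulEquiv.orderOf_eq, Prod.orderOf, orderOf_one, Nat.lcm_one_right, Subgroup.orderOf_mk, hcardE, Nat.card_zpowers s, hj, mul_comm (orderOf s)] at h1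
      exact Nat.eq_of_mul_eq_mul_right (orderOf_pos s) h1
  let proj : E →* A := (MonoidHom.fst A P).comp e.symm.toMonoidHom
  let S : G → Prop := fun w => s⁻¹ * w ∈ P
  have hmem := indFun_indicator_mem hE (A := A) (fun u v => IsMulCommutative.is_comm.comm u v) proj ⟨s, Subgroup.mem_zpowers s⟩
  have hSE : ∀ w, S w → w ∈ E := fun w hw => ⟨(⟨s, Subgroup.mem_zpowers s⟩, ⟨_, hw⟩), by show s * (s⁻¹ * w) = w; group⟩
  have hiff : ∀ z : E, proj z = ⟨s, Subgroup.mem_zpowers s⟩ ↔ S z := by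
    intro z
    obtain ⟨⟨u, q⟩, rfl⟩ := e.surjective z
    have hproj : proj (e (u, q)) = u := by simp [proj]
    rw [hproj]
    show _ ↔ s⁻¹ * ((u : G) * q) ∈ P
    constructor
    · rintro rfl
      show s⁻¹ * (s * (q : G)) ∈ P
      rw [inv_mul_cancel_left]; exact q.2
    · intro h
      have := hinj (a₁ := (u, q)) (a₂ := (⟨s, Subgroup.mem_zpowers s⟩, ⟨_, h⟩)) (by show (u : G) * q = s * (s⁻¹ * ((u : G) * q)); group)
      exact (Prod.ext_iff.1 this).1
  have hright : ∀ g y : G, ∀ k ∈ P, S (y⁻¹ * g * y) → S ((y * k)⁻¹ * g * (y * k)) := by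
    intro g y k hk h
    show s⁻¹ * _ ∈ P
    have e1 : s⁻¹ * k⁻¹ = k⁻¹ * s⁻¹ := by rw [← mul_inv_rev, hPC k hk, mul_inv_rev]
    rw [show s⁻¹ * ((y * k)⁻¹ * g * (y * k)) = (s⁻¹ * k⁻¹) * (y⁻¹ * g * y) * k by group, e1, mul_assoc k⁻¹]
    exact mul_mem (mul_mem (inv_mem hk) h) hk
  have hval : indFun E (fun z : E => if proj z = ⟨s, Subgroup.mem_zpowers s⟩ then (Nat.card A : ℂ) else 0) =
      fun g => (((Nat.card {q : G ⧸ P // S (q.out⁻¹ * g * q.out)} : ℕ) : ℤ) : ℂ) := by
    funext g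
    rw [show (fun z : E => if proj z = ⟨s, Subgroup.mem_zpowers s⟩ then (Nat.card A : ℂ) else 0) = (Nat.card A : ℂ) • (fun z : E => if S z then (1 : ℂ) else 0) from funext fun z => by simp [hiff z],
      indFun_smul, Pi.smul_apply, smul_eq_mul, indFun_indicator E S hSE, conjCount_eq_cosets S P g (hright g), hcardE]
    push_cast
    have hA0 : (Nat.card A : ℂ) ≠ 0 := Nat.cast_ne_zero.2 Nat.card_pos.ne'
    have hP0 : (Nat.card P : ℂ) ≠ 0 := Nat.cast_ne_zero.2 Nat.card_pos.ne'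
    field_simp
  refine ⟨fun g => (Nat.card {q : G ⧸ P // S (q.out⁻¹ * g * q.out)} : ℕ), hval ▸ hmem, ?_⟩
  rw [Int.natCast_dvd_natCast]
  -- fixed points
  obtain ⟨t, ht⟩ := CfsgLib.Blocks.pPart_eq_pow hp has hc ⟨ka, hka⟩ hs
  have haC : a ∈ C := Subgroup.mem_centralizer_singleton_iff.2 hc.eq
  let a' : C := ⟨a, haC⟩
  let Z : Subgroup C := Subgroup.zpowers a'
  have hZ : IsPGroup p Z := IsPGroup.of_card (n := ka) (by rw [Nat.card_zpowers, Subgroup.orderOf_mk, hka])
  have hShift : ∀ (y : G) (q : G), (q⁻¹ * y ∈ P) → (S (q⁻¹ * x * q) ↔ S (y⁻¹ * x * y)) := by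
    intro y q h
    have e1 : y = q * (q⁻¹ * y) := by group
    constructor
    · intro hh; rw [e1]; exact hright x q _ h hh
    · intro hh
      have := hright x y _ (inv_mem h) hh
      rwa [show y * (q⁻¹ * y)⁻¹ = q by group] at this
  let ι : C ⧸ (P₀ : Subgroup C) → G ⧸ P := Quotient.map' (fun n : C => (n : G)) fun u v h => by
    rw [QuotientGroup.leftRel_apply] at h ⊢
    exact ⟨u⁻¹ * v, h, rfl⟩
  have hcrit : ∀ y : C, S ((y : G)⁻¹ * x * y) ↔ a' • ((y : C) : C ⧸ (P₀ : Subgroup C)) = (y : C ⧸ (P₀ : Subgroup C)) := by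
    intro y
    rw [MulAction.Quotient.smul_mk, QuotientGroup.eq, smul_eq_mul]
    have h1 : s⁻¹ * ((y : G)⁻¹ * x * y) = (y : G)⁻¹ * a * y := by
      have hy : (y : G) * s = s * y := Subgroup.mem_centralizer_singleton_iff.1 y.2
      have e1 : s⁻¹ * (y : G)⁻¹ = (y : G)⁻¹ * s⁻¹ := by rw [← mul_inv_rev, hy, mul_inv_rev]
      rw [← has, hc.eq]
      calc s⁻¹ * ((y : G)⁻¹ * (s * a) * y) = (s⁻¹ * (y : G)⁻¹) * s * a * y := by group
        _ = ((y : G)⁻¹ * s⁻¹) * s * a * y := by rw [e1]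
        _ = _ := by group
    show s⁻¹ * ((y : G)⁻¹ * x * y) ∈ P ↔ _
    rw [h1, ← inv_mem_iff (x := (a' * y)⁻¹ * y)]
    constructor
    · rintro ⟨w, hw, hwe⟩
      have e2 : ((a' * y)⁻¹ * y)⁻¹ = w := by
        refine Subtype.ext ?_
        rw [show (w : G) = (y : G)⁻¹ * a * y from hwe]
        simp [a', mul_assoc]
      rw [e2]; exact hw
    · intro h
      refine ⟨_, h, ?_⟩
      simp [a', mul_assoc]
  have key : Nat.card {q : G ⧸ P // S (q.out⁻¹ * x * q.out)} = Nat.card (MulAction.fixedPoints Z (C ⧸ (P₀ : Subgroup C))) := by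
    have hout : ∀ y : G, (((y : G) : G ⧸ P)).out⁻¹ * y ∈ P := fun y => QuotientGroup.eq.1 (QuotientGroup.out_eq' _)
    let F : MulAction.fixedPoints Z (C ⧸ (P₀ : Subgroup C)) → {q : G ⧸ P // S (q.out⁻¹ * x * q.out)} := fun w => ⟨ι w.1, by
      obtain ⟨w, hw⟩ := w
      induction w using QuotientGroup.induction_on with
      | H y =>
        show S (((y : G) : G ⧸ P).out⁻¹ * x * ((y : G) : G ⧸ P).out)
        rw [hShift (y : G) _ (hout (y : G)), hcrit y]
        exact hw ⟨a', Subgroup.mem_zpowers a'⟩⟩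
    refine (Nat.card_congr (Equiv.ofBijective F ⟨?_, ?_⟩)).symm
    · rintro ⟨u, hu⟩ ⟨v, hv⟩ h
      have h' : ι u = ι v := congrArg Subtype.val h
      refine Subtype.ext ?_
      show u = v
      clear h hu hv
      induction u using QuotientGroup.induction_on with
      | H u => induction v using QuotientGroup.induction_on with
        | H v =>
          obtain ⟨w, hw, hwe⟩ := (QuotientGroup.eq (s := P)).1 h'
          refine QuotientGroup.eq.2 ?_
          have hwe' : (w : G) = (u : G)⁻¹ * v := hwe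
          rwa [show u⁻¹ * v = w from Subtype.ext hwe'.symm]
    · rintro ⟨q, hq⟩
      induction q using QuotientGroup.induction_on with
      | H g =>
        rw [hShift g _ (hout g)] at hq
        have hgC : g ∈ C := by
          refine Subgroup.mem_centralizer_singleton_iff.2 ?_
          obtain ⟨k, hk⟩ := IsPGroup.iff_orderOf.1 hPp ⟨_, hq⟩
          rw [Subgroup.orderOf_mk] at hk
          have p1 : IsPPart p (g⁻¹ * x * g) (g⁻¹ * a * g) := by
            simpa using CfsgLib.Blocks.IsPPart.conj (show IsPPart p x a from ⟨s, has, hc, ⟨ka, hka⟩, hs⟩) g⁻¹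
          have p2 : IsPPart p (g⁻¹ * x * g) (s⁻¹ * (g⁻¹ * x * g)) :=
            ⟨s, by rw [hPC _ hq]; group, hPC _ hq, ⟨k, hk⟩, hs⟩
          have e1 := CfsgLib.Blocks.isPPart_unique hp p1 p2
          rw [← has] at e1
          have e3 : g⁻¹ * s * g = s := by
            have e4 : s * (g⁻¹ * a * g) = (g⁻¹ * (a * s) * g) := by rw [e1]; group
            rw [hc.eq] at e4
            have e5 : s * (g⁻¹ * a * g) = (g⁻¹ * s * g) * (g⁻¹ * a * g) := by rw [e4]; group
            exact (mul_right_cancel e5).symm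
          calc g * s = g * (g⁻¹ * s * g) := by rw [e3]
            _ = s * g := by group
        refine ⟨⟨((⟨g, hgC⟩ : C) : C ⧸ (P₀ : Subgroup C)), ?_⟩, Subtype.ext rfl⟩
        intro b
        obtain ⟨b, hb⟩ := b
        have hfx := (hcrit ⟨g, hgC⟩).1 hq
        have : Z ≤ MulAction.stabilizer C ((⟨g, hgC⟩ : C) : C ⧸ (P₀ : Subgroup C)) := Subgroup.zpowers_le.2 hfx
        exact this hb
  rw [key]
  intro hd
  exact P₀.not_dvd_index ((Nat.ModEq.dvd_iff (hZ.card_modEq_card_fixedPoints (C ⧸ (P₀ : Subgroup C))) dvd_rfl).2 hd)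

theorem natCard_mul_mem {p : ℕ} (hp : p.Prime) {f : G → ℤ} (hf : ∀ g y : G, f (y⁻¹ * g * y) = f g) :
    (fun x => (Nat.card G : ℂ) * (f x : ℂ)) ∈ bSpan G p := by
  classical
  have e : (fun x => (Nat.card G : ℂ) * (f x : ℂ)) = ∑ s : G, f s •
      indFun (Subgroup.zpowers s) (fun z : Subgroup.zpowers s =>
        if (MonoidHom.id (Subgroup.zpowers s)) z = ⟨s, Subgroup.mem_zpowers s⟩ then (Nat.card (Subgroup.zpowers s) : ℂ) else 0) := by
    funext x
    have hs : ∀ s : G, indFun (Subgroup.zpowers s) (fun z : Subgroup.zpowers s =>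
        if (MonoidHom.id (Subgroup.zpowers s)) z = ⟨s, Subgroup.mem_zpowers s⟩ then (Nat.card (Subgroup.zpowers s) : ℂ) else 0) x = ∑ y : G, if y⁻¹ * x * y = s then (1 : ℂ) else 0 := fun s => by
      rw [show (fun z : Subgroup.zpowers s => if (MonoidHom.id (Subgroup.zpowers s)) z = ⟨s, Subgroup.mem_zpowers s⟩ then (Nat.card (Subgroup.zpowers s) : ℂ) else 0) = (Nat.card (Subgroup.zpowers s) : ℂ) • (fun z : Subgroup.zpowers s => if (z : G) = s then (1 : ℂ) else 0) from funext fun z => by simp [Subtype.ext_iff],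
        indFun_smul, Pi.smul_apply, smul_eq_mul, indFun_indicator (Subgroup.zpowers s) (fun w => w = s) (fun w hw => hw ▸ Subgroup.mem_zpowers s), ← mul_assoc,
        mul_inv_cancel₀ (Nat.cast_ne_zero.2 Nat.card_pos.ne'), one_mul, conjCount_eq_sum]
    simp only [Finset.sum_apply, Pi.smul_apply, zsmul_eq_mul, Pi.mul_apply, Pi.intCast_apply, hs, Finset.mul_sum]
    rw [Finset.sum_comm]
    simp [hf, Nat.card_eq_fintype_card]
  rw [e]
  refine sum_mem fun s _ => zsmul_mem ?_ _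
  haveI : Fintype (Subgroup.zpowers s) := Fintype.ofFinite _
  exact indFun_indicator_mem (isElementary_zpowers hp s) (fun a b => IsMulCommutative.is_comm.comm a b) _ _

theorem bSpan_classFunction {p : ℕ} {f : G → ℂ} (hf : f ∈ bSpan G p) : IsClassFunction G f := by
  intro g h
  induction hf using AddSubgroup.closure_induction with
  | mem a ha =>
    obtain ⟨t, rfl⟩ := ha
    simp only [Pi.smul_apply]
    rw [indFun_isClassFunction t.1.1.1 t.1.1.2 g h]
  | zero => rfl
  | add a b _ _ h1 h2 => simp only [Pi.add_apply, h1, h2]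
  | neg a _ h1 => simp only [Pi.neg_apply, h1]

theorem exists_mem_bSpan (p : ℕ) (hp : p.Prime) :
    ∃ m : ℤ, ¬ (p : ℤ) ∣ m ∧ (fun _ : G => (m : ℂ)) ∈ bSpan G p := by
  classical
  let cast : (G → ℤ) →+* (G → ℂ) := RingHom.pi fun g => (Int.castRingHom ℂ).comp (Pi.evalRingHom (fun _ => ℤ) g)
  have hcast : ∀ (f : G → ℤ) x, cast f x = (f x : ℂ) := fun f x => rfl
  let R : AddSubgroup (G → ℤ) := (bSpan G p).comap cast.toAddMonoidHom
  have hloc : ∀ x, ∃ f ∈ R, ¬ (p : ℤ) ∣ f x := fun x => by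
    obtain ⟨f, hf, hfx⟩ := exists_local x p hp
    exact ⟨f, hf, hfx⟩
  set e := (Nat.card G).factorization p with he
  set n' := Nat.card G / p ^ e with hn'
  have hcard : Nat.card G = p ^ e * n' := (Nat.ordProj_mul_ordCompl_eq_self (Nat.card G) p).symm
  obtain ⟨g, hg, hg1⟩ := exists_approx_unit hp R (fun f hf g hg => by
    show cast (f * g) ∈ bSpan G p
    rw [map_mul]; exact bSpan_mul hf hg) hloc e
  choose h hh using hg1
  have hgR : cast g ∈ bSpan G p := hg
  refine ⟨(n' : ℤ), ?_, ?_⟩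
  · rw [Int.natCast_dvd_natCast]
    exact Nat.not_dvd_ordCompl hp Nat.card_pos.ne'
  have hinv : ∀ x y : G, h (y⁻¹ * x * y) = h x := fun x y => by
    have h1 := bSpan_classFunction hgR x y⁻¹
    rw [inv_inv, hcast, hcast, Int.cast_inj] at h1
    have h2 := hh (y⁻¹ * x * y)
    rw [h1, hh x] at h2
    exact (mul_left_cancel₀ (pow_ne_zero e (by exact_mod_cast hp.ne_zero : (p : ℤ) ≠ 0)) h2).symm
  have h3 : (fun _ : G => (((n' : ℤ)) : ℂ)) = n' • cast g - (fun x => (Nat.card G : ℂ) * (h x : ℂ)) := by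
    funext x
    simp only [Pi.sub_apply, Pi.smul_apply, nsmul_eq_mul, Pi.mul_apply, Pi.natCast_apply, hcast, Int.cast_natCast]
    rw [show g x = 1 + (p : ℤ) ^ e * h x by linear_combination hh x, hcard]
    push_cast
    ring
  rw [h3]
  exact sub_mem (nsmul_mem hgR _) (natCard_mul_mem hp hinv)

omit [Fintype G] in
theorem exists_rat_integral {a : ℂ} (ha : IsIntegral ℤ a) {k m : ℤ} (hk : k ≠ 0) (h : (k : ℂ) * a = (m : ℂ)) :
    ∃ z : ℤ, (z : ℂ) = a := by
  have hk' : (k : ℂ) ≠ 0 := Int.cast_ne_zero.2 hk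
  have e : a = (((m : ℚ) / (k : ℚ) : ℚ) : ℂ) := by push_cast; field_simp; linear_combination h
  rw [e] at ha
  have hq : IsIntegral ℤ ((m : ℚ) / (k : ℚ)) := by
    rw [← eq_ratCast (algebraMap ℚ ℂ)] at ha
    exact (isIntegral_algebraMap_iff (algebraMap ℚ ℂ).injective).1 ha
  obtain ⟨z, hz⟩ := IsIntegrallyClosed.isIntegral_iff.1 hq
  exact ⟨z, by rw [e, ← hz]; simp⟩

omit [Fintype G] in
/-- An integer valued linear functional on finitely many algebraic integers fixing the integers. -/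
theorem exists_retraction (s : Finset ℂ) (hs : ∀ c ∈ s, IsIntegral ℤ c) :
    ∃ (M : Submodule ℤ ℂ) (_ : (1 : ℂ) ∈ M) (_ : ∀ c ∈ s, c ∈ M) (π : M →ₗ[ℤ] ℤ), ∀ (k : ℤ) (hk : (k : ℂ) ∈ M), π ⟨(k : ℂ), hk⟩ = k := by
  classical
  let M : Submodule ℤ ℂ := Submodule.span ℤ (insert 1 (s : Set ℂ))
  have h1 : (1 : ℂ) ∈ M := Submodule.subset_span (Set.mem_insert _ _)
  haveI : Module.Finite ℤ M := Module.Finite.span_of_finite ℤ ((s.finite_toSet).insert 1)
  have hint : ∀ x ∈ M, IsIntegral ℤ x := by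
    intro x hx
    induction hx using Submodule.span_induction with
    | mem y hy =>
      rcases hy with rfl | hy
      · exact isIntegral_one
      · exact hs y hy
    | zero => exact isIntegral_zero
    | add a b _ _ ha hb => exact ha.add hb
    | smul k a _ ha => exact ha.smul k
  let I : Submodule ℤ M := Submodule.span ℤ {(⟨1, h1⟩ : M)}
  haveI : Module.IsTorsionFree ℤ (M ⧸ I) := by
    refine ⟨fun k hk => ?_⟩
    intro q₁ q₂ hq
    obtain ⟨a, rfl⟩ := Submodule.Quotient.mk_surjective I q₁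
    obtain ⟨b, rfl⟩ := Submodule.Quotient.mk_surjective I q₂
    have hq' : k • Submodule.Quotient.mk (p := I) a = k • Submodule.Quotient.mk (p := I) b := hq
    rw [← Submodule.Quotient.mk_smul, ← Submodule.Quotient.mk_smul, Submodule.Quotient.eq, Submodule.mem_span_singleton] at hq'
    obtain ⟨m, hm⟩ := hq'
    have hm' : (k : ℂ) * ((a : ℂ) - b) = (m : ℂ) := by
      have := congrArg Subtype.val hm
      simp only [Submodule.coe_smul, Submodule.coe_sub, zsmul_eq_mul, mul_one] at this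
      linear_combination -this
    obtain ⟨z, hz⟩ := exists_rat_integral (hint _ (sub_mem a.2 b.2)) hk.ne_zero hm'
    rw [Submodule.Quotient.eq, Submodule.mem_span_singleton]
    exact ⟨z, Subtype.ext (by simpa using hz)⟩
  obtain ⟨σ, hσ⟩ := Module.projective_lifting_property (I.mkQ) (LinearMap.id) I.mkQ_surjective
  let r : M →ₗ[ℤ] M := LinearMap.id - σ.comp I.mkQ
  have hr : ∀ x, r x ∈ I := fun x => by
    rw [← Submodule.Quotient.mk_eq_zero]
    have := LinearMap.congr_fun hσ (I.mkQ x)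
    simp only [LinearMap.comp_apply, LinearMap.id_apply] at this
    show I.mkQ (x - σ (I.mkQ x)) = 0
    rw [map_sub, this, sub_self]
  have hinj : (⟨1, h1⟩ : M) ≠ 0 := fun h => one_ne_zero (congrArg Subtype.val h)
  let e : ℤ ≃ₗ[ℤ] I := LinearEquiv.toSpanNonzeroSingleton ℤ M _ hinj
  refine ⟨M, h1, fun c hc => Submodule.subset_span (Set.mem_insert_of_mem _ hc), e.symm.toLinearMap.comp (r.codRestrict I hr), fun k hk => ?_⟩
  show e.symm ⟨r ⟨(k : ℂ), hk⟩, hr _⟩ = k
  rw [LinearEquiv.symm_apply_eq]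
  refine Subtype.ext ?_
  show r ⟨(k : ℂ), hk⟩ = k • (⟨1, h1⟩ : M)
  have he : (⟨(k : ℂ), hk⟩ : M) = k • (⟨1, h1⟩ : M) := Subtype.ext (by simp)
  show (⟨(k : ℂ), hk⟩ : M) - σ (I.mkQ ⟨(k : ℂ), hk⟩) = _
  rw [show I.mkQ ⟨(k : ℂ), hk⟩ = 0 from (Submodule.Quotient.mk_eq_zero I).2 (he ▸ I.smul_mem k (Submodule.mem_span_singleton_self _)), map_zero, sub_zero, he]

/-- The integral span of characters induced from `p`-elementary subgroups. -/
noncomputable def bSpanZ (G : Type u) [Group G] [Fintype G] (p : ℕ) : AddSubgroup (G → ℂ) :=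
  AddSubgroup.closure (Set.range fun t : BIndex G p => indFun t.1.1 t.1.2)

/-- Brauer's theorem, local form. -/
theorem local_brauer (p : ℕ) (hp : p.Prime) :
    ∃ m : ℤ, ¬ (p : ℤ) ∣ m ∧ (fun _ : G => (m : ℂ)) ∈ bSpanZ G p := by
  classical
  obtain ⟨m, hm, hmem⟩ := exists_mem_bSpan (G := G) p hp
  refine ⟨m, hm, ?_⟩
  obtain ⟨l, hl⟩ := exists_list_of_mem_closure hmem
  obtain ⟨M, h1, hs, π, hπ⟩ := exists_retraction (l.map fun t => t.1.2.1).toFinset (fun c hc => by
    obtain ⟨t, -, rfl⟩ := List.mem_map.1 (List.mem_toFinset.1 hc)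
    exact t.1.2.2)
  have hcM : ∀ t ∈ l, t.1.2.1 ∈ M := fun t ht => hs _ (List.mem_toFinset.2 (List.mem_map.2 ⟨t, ht, rfl⟩))
  have hint : ∀ (t : BIndex G p) (χ : IrrCharacter G), ∃ k : ℕ, classInner (indFun t.1.1 t.1.2) (χ : G → ℂ) = (k : ℂ) :=
    fun t χ => exists_mult (IsCharacter.indFun t.1.1 t.2.2) χ
  choose n hn using hint
  -- the replaced coefficient
  let π' : ℂ → ℤ := fun c => if hc : c ∈ M then π ⟨c, hc⟩ else 0
  let f : G → ℂ := (l.map fun t => ((t.2 * π' t.1.2.1 : ℤ) : ℂ) • indFun t.1.1.1.1 t.1.1.1.2).sum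
  have hfm : f ∈ bSpanZ G p := by
    refine list_sum_mem fun v hv => ?_
    obtain ⟨t, -, rfl⟩ := List.mem_map.1 hv
    show ((t.2 * π' t.1.2.1 : ℤ) : ℂ) • indFun t.1.1.1.1 t.1.1.1.2 ∈ bSpanZ G p
    rw [Int.cast_smul_eq_zsmul]
    exact zsmul_mem (AddSubgroup.subset_closure (Set.mem_range_self (f := fun t : BIndex G p => indFun t.1.1 t.1.2) t.1.1)) _
  have heq : (fun _ : G => (m : ℂ)) = f := by
    have hcf : ∀ t : BIndex G p, IsClassFunction G (indFun t.1.1 t.1.2) := fun t => indFun_isClassFunction _ _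
    have hf : IsClassFunction G f := by
      intro g h
      simp only [f]
      clear hfm hl hcM hs f
      induction l with
      | nil => simp
      | cons a t ih => simp only [List.map_cons, List.sum_cons, Pi.add_apply, Pi.smul_apply, hcf a.1.1 g h] at ih ⊢; rw [ih]
    funext x
    rw [classFunction_expand (f := fun _ : G => (m : ℂ)) (fun _ _ => rfl) x, classFunction_expand hf x]
    refine Finset.sum_congr rfl fun χ _ => ?_
    congr 1
    let κ : ℂ := classInner (fun _ : G => (1 : ℂ)) (χ : G → ℂ)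
    obtain ⟨j, hj⟩ := exists_mult (φ := fun _ : G => (1 : ℂ)) (IsIrrCharacter.isCharacter (isIrrCharacter_one G)) χ
    have hlin : ∀ (g₁ : G → ℂ) (c : ℂ) (g₂ : G → ℂ), classInner (c • g₁ + g₂) (χ : G → ℂ) = c * classInner g₁ (χ : G → ℂ) + classInner g₂ (χ : G → ℂ) := by
      intro g₁ c g₂
      simp [classInner, add_mul, Finset.sum_add_distrib, mul_add, Finset.mul_sum, mul_assoc, mul_left_comm]
    have hm1 : classInner (fun _ : G => (m : ℂ)) (χ : G → ℂ) = ((m * j : ℤ) : ℂ) := by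
      rw [show (fun _ : G => (m : ℂ)) = (m : ℂ) • (fun _ : G => (1 : ℂ)) + 0 from funext fun _ => by simp, hlin, hj]
      simp [classInner]
    have hlist : ∀ (co : (BIndex G p × {c : ℂ // IsIntegral ℤ c}) × ℤ → ℂ) (l' : List ((BIndex G p × {c : ℂ // IsIntegral ℤ c}) × ℤ)),
        classInner ((l'.map fun t => co t • indFun t.1.1.1.1 t.1.1.1.2).sum) (χ : G → ℂ) = (l'.map fun t => co t * (n t.1.1 χ : ℂ)).sum := by
      intro co l'
      induction l' with
      | nil => simp [classInner]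
      | cons a t ih => simp only [List.map_cons, List.sum_cons]; rw [hlin, ih, hn]
    have hsum : ∀ l' : List ((BIndex G p × {c : ℂ // IsIntegral ℤ c}) × ℤ), (∀ t ∈ l', t.1.2.1 ∈ M) →
        ∃ y : M, (y : ℂ) = (l'.map fun t => ((t.2 : ℂ) * t.1.2.1) * (n t.1.1 χ : ℂ)).sum ∧
          (π y : ℂ) = (l'.map fun t => (((t.2 * π' t.1.2.1 : ℤ)) : ℂ) * (n t.1.1 χ : ℂ)).sum := by
      intro l' h'
      induction l' with
      | nil => exact ⟨0, by simp, by simp⟩
      | cons a t ih =>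
        obtain ⟨y, hy1, hy2⟩ := ih fun u hu => h' u (List.mem_cons_of_mem _ hu)
        have ha := h' a (List.mem_cons_self ..)
        refine ⟨(a.2 * (n a.1.1 χ : ℤ)) • (⟨a.1.2.1, ha⟩ : M) + y, ?_, ?_⟩
        · simp only [List.map_cons, List.sum_cons, ← hy1, Submodule.coe_add, Submodule.coe_smul, zsmul_eq_mul]
          push_cast
          ring
        · simp only [List.map_cons, List.sum_cons, ← hy2, map_add, map_zsmul, π', dif_pos ha, smul_eq_mul]
          push_cast
          ring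
    obtain ⟨y, hy1, hy2⟩ := hsum l hcM
    have hl' : (l.map fun t => ((t.2 : ℂ) * t.1.2.1) • indFun t.1.1.1.1 t.1.1.1.2).sum = fun _ : G => (m : ℂ) := by
      rw [hl]
      exact congrArg List.sum (List.map_congr_left fun t _ => (smul_smul _ _ _).symm)
    have hyv : (y : ℂ) = ((m * j : ℤ) : ℂ) := by
      rw [hy1, ← hlist (fun t => (t.2 : ℂ) * t.1.2.1) l, hl', hm1]
    have hk : ((m * j : ℤ) : ℂ) ∈ M := hyv ▸ y.2
    rw [hm1]
    show _ = classInner ((l.map fun t => (((t.2 * π' t.1.2.1 : ℤ)) : ℂ) • indFun t.1.1.1.1 t.1.1.1.2).sum) (χ : G → ℂ)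
    rw [hlist, ← hy2, show y = ⟨((m * j : ℤ) : ℂ), hk⟩ from Subtype.ext hyv, hπ]
  rw [heq]
  exact hfm

end CfsgLib.BrauerInd
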