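import Mathlib
import Cfsg.Agent.Lib.BrauerInd.Basic
import Cfsg.Agent.Lib.CliffordCorr
import Cfsg.Agent.Lib.CharAbelian
import Cfsg.Agent.Lib.Chars.Kernel

/-!
Nilpotent groups are monomial groups.
-/

set_option autoImplicit false

namespace CfsgLib.BrauerInd

open Cfsg CfsgLib.Chars

universe u

variable {G : Type u} [Group G]

theorem indFun_top [Fintype G] {θ : G → ℂ} (hθ : IsClassFunction G θ) :
    indFun (⊤ : Subgroup G) (fun h : (⊤ : Subgroup G) => θ h) = θ := by
  classical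
  funext g
  simp only [indFun]
  have : ∀ x : G, extendByZero (⊤ : Subgroup G) (fun h : (⊤ : Subgroup G) => θ h) (x⁻¹ * g * x) = θ g := fun x => by
    rw [ext0_eq, dif_pos (Subgroup.mem_top _)]
    have := hθ g x⁻¹
    rwa [inv_inv] at this
  rw [Finset.sum_congr rfl (fun x _ => this x), Finset.sum_const, Finset.card_univ, nsmul_eq_mul,
    Subgroup.card_top, Nat.card_eq_fintype_card, inv_mul_cancel_left₀ (Nat.cast_ne_zero.2 Fintype.card_pos.ne')]

theorem indFun_comap [Fintype G] (K : Subgroup G) [K.Normal] [Fintype (G ⧸ K)] (H' : Subgroup (G ⧸ K))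
    (θ : H' → ℂ) :
    (fun g : G => indFun H' θ (QuotientGroup.mk g)) =
      indFun (H'.comap (QuotientGroup.mk' K)) (fun h => θ ⟨QuotientGroup.mk' K h, h.2⟩) := by
  classical
  funext g
  set π := QuotientGroup.mk' K
  have hcard : Nat.card (H'.comap π) = Nat.card K * Nat.card H' := by
    rw [← Nat.card_prod]
    exact Nat.card_congr (QuotientGroup.preimageMkEquivSubgroupProdSet K (H' : Set (G ⧸ K)))
  have hterm : ∀ x : G, extendByZero (H'.comap π) (fun h => θ ⟨π h, h.2⟩) (x⁻¹ * g * x) =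
      extendByZero H' θ ((π x)⁻¹ * π g * π x) := fun x => by
    rw [ext0_eq, ext0_eq]
    by_cases h : π (x⁻¹ * g * x) ∈ H'
    · have h2 : (π x)⁻¹ * π g * π x ∈ H' := by simpa using h
      rw [dif_pos (show x⁻¹ * g * x ∈ H'.comap π from h), dif_pos h2]
      congr 1
      all_goals exact Subtype.ext (by simp)
    · have h2 : ¬ (π x)⁻¹ * π g * π x ∈ H' := by simpa using h
      rw [dif_neg (show x⁻¹ * g * x ∉ H'.comap π from h), dif_neg h2]
  simp only [indFun, hterm]
  have hfib : ∀ F : G ⧸ K → ℂ, ∑ x : G, F (π x) = (Nat.card K : ℂ) * ∑ q : G ⧸ K, F q := by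
    intro F
    rw [← Finset.sum_fiberwise' Finset.univ (fun x : G => π x) F, Finset.mul_sum]
    refine Finset.sum_congr rfl fun q _ => ?_
    rw [Finset.sum_const, nsmul_eq_mul]
    congr 2
    rw [← Fintype.card_subtype, ← Nat.card_eq_fintype_card]
    have := Nat.card_congr (QuotientGroup.preimageMkEquivSubgroupProdSet K {q})
    rw [Nat.card_prod, Nat.card_unique (α := ({q} : Set (G ⧸ K))), mul_one] at this
    exact this
  rw [hfib (fun q => extendByZero H' θ (q⁻¹ * π g * q)), hcard]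
  push_cast
  have hK : (Nat.card K : ℂ) ≠ 0 := Nat.cast_ne_zero.2 Nat.card_pos.ne'
  have hH : (Nat.card H' : ℂ) ≠ 0 := Nat.cast_ne_zero.2 Nat.card_pos.ne'
  show (Nat.card H' : ℂ)⁻¹ * ∑ q : G ⧸ K, extendByZero H' θ (q⁻¹ * π g * q) = _
  field_simp

theorem monomial : ∀ (n : ℕ) (G : Type u) [Group G] [Fintype G], Group.IsNilpotent G → Nat.card G = n →
    ∀ χ : IrrCharacter G, ∃ (H : Subgroup G) (lam : H →* ℂˣ), (χ : G → ℂ) = indFun H (fun h => (lam h : ℂ)) := by
  intro n
  induction n using Nat.strong_induction_on with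
  | _ n ih =>
  intro G _ _ hnil hn χ
  classical
  have hχc := isCharacter_irr χ
  obtain ⟨K, hKn, hK, hKmul⟩ := IsCharacter.exists_kernel hχc
  haveI := hKn
  by_cases hKb : K = ⊥
  swap
  · obtain ⟨ψ, hψ⟩ := exists_deflate K χ fun k hk => (hK k).1 hk
    haveI := Fintype.ofFinite (G ⧸ K)
    have hlt : Nat.card (G ⧸ K) < n := by
      rw [← hn, Subgroup.card_eq_card_quotient_mul_card_subgroup K]
      exact lt_mul_of_one_lt_right Nat.card_pos ((Subgroup.one_lt_card_iff_ne_bot K).2 hKb)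
    obtain ⟨H', lam', he⟩ := ih _ hlt (G ⧸ K) inferInstance rfl ψ
    refine ⟨H'.comap (QuotientGroup.mk' K), lam'.comp
      ((QuotientGroup.mk' K).subgroupComap H'), ?_⟩
    rw [hψ, he]
    exact indFun_comap K H' _
  by_cases hcomm : ∀ a b : G, a * b = b * a
  · obtain ⟨f, hf⟩ := exists_homIrr χ (charDegree_eq_one_of_comm hcomm χ)
    refine ⟨⊤, f.comp (⊤ : Subgroup G).subtype, ?_⟩
    rw [← hf]
    exact (indFun_top (θ := (homIrr f : G → ℂ)) (IsCharacter.isClassFunction (isCharacter_irr _))).symm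
  -- a noncentral abelian normal subgroup
  let Z := Subgroup.center G
  have hZne : Z ≠ ⊤ := fun h => hcomm fun a b => (Subgroup.mem_center_iff.1 (show b ∈ Z by rw [h]; exact Subgroup.mem_top b) a)
  haveI : Nontrivial (G ⧸ Z) := QuotientGroup.nontrivial_iff.2 hZne
  haveI := hnil
  obtain ⟨ā, hā, hā1⟩ : ∃ q ∈ Subgroup.center (G ⧸ Z), q ≠ 1 := by
    haveI : Nontrivial (Subgroup.center (G ⧸ Z)) := (Subgroup.nontrivial_iff_ne_bot _).2 (Group.IsNilpotent.center_ne_bot _)
    obtain ⟨q, hq⟩ := exists_ne (1 : Subgroup.center (G ⧸ Z))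
    exact ⟨q, q.2, fun h => hq (Subtype.ext h)⟩
  obtain ⟨a, rfl⟩ := QuotientGroup.mk_surjective ā
  have haZ : a ∉ Z := fun h => hā1 ((QuotientGroup.eq_one_iff a).2 h)
  let A : Subgroup G := Z ⊔ Subgroup.zpowers a
  have hcom : ∀ g : G, g * a * g⁻¹ * a⁻¹ ∈ Z := fun g => by
    rw [← QuotientGroup.eq_one_iff]
    rw [QuotientGroup.mk_mul, QuotientGroup.mk_mul, QuotientGroup.mk_mul, QuotientGroup.mk_inv, QuotientGroup.mk_inv, (Subgroup.mem_center_iff.1 hā (g : G ⧸ Z)), mul_inv_cancel_right, mul_inv_cancel]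
  haveI hAn : A.Normal := by
    refine ⟨fun x hx g => ?_⟩
    have hle : A ≤ A.comap (MulAut.conj g).toMonoidHom := by
      refine sup_le (fun z hz => ?_) (Subgroup.zpowers_le.2 ?_)
      · refine Subgroup.mem_comap.2 (Subgroup.mem_sup_left ?_)
        exact (inferInstance : Z.Normal).conj_mem z hz g
      · show g * a * g⁻¹ ∈ A
        rw [show g * a * g⁻¹ = (g * a * g⁻¹ * a⁻¹) * a by group]
        exact mul_mem (Subgroup.mem_sup_left (hcom g)) (Subgroup.mem_sup_right (Subgroup.mem_zpowers a))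
    exact hle hx
  have hAc : A ≤ Subgroup.centralizer ({a} : Set G) := sup_le
    (fun z hz => Subgroup.mem_centralizer_singleton_iff.2 (Subgroup.mem_center_iff.1 hz a).symm)
    (Subgroup.zpowers_le.2 (Subgroup.mem_centralizer_singleton_iff.2 rfl))
  have hAcomm : ∀ x y : A, x * y = y * x := by
    intro x y
    have hle : A ≤ Subgroup.centralizer ({(x : G)} : Set G) := sup_le
      (fun z hz => Subgroup.mem_centralizer_singleton_iff.2 (Subgroup.mem_center_iff.1 hz x).symm)
      (Subgroup.zpowers_le.2 (Subgroup.mem_centralizer_singleton_iff.2 (Subgroup.mem_centralizer_singleton_iff.1 (hAc x.2)).symm))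
    exact Subtype.ext (Subgroup.mem_centralizer_singleton_iff.1 (hle y.2)).symm
  haveI : Fintype A := Fintype.ofFinite A
  obtain ⟨θ, hθ⟩ := exists_res_constituent A χ
  let T : Subgroup G :=
    { carrier := {g | conjIrr A θ g = θ}
      mul_mem' := fun {g h} hg hh => by
        show conjIrr A θ (g * h) = θ
        rw [conjIrr_mul, hg, hh]
      one_mem' := conjIrr_one A θ
      inv_mem' := fun {g} hg => by
        show conjIrr A θ g⁻¹ = θ
        have h1 : conjIrr A (conjIrr A θ g) g⁻¹ = θ := by rw [← conjIrr_mul, mul_inv_cancel, conjIrr_one]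
        rwa [hg] at h1 }
  have hTne : T ≠ ⊤ := by
    intro hT
    obtain ⟨e, -, -, hval, -⟩ := clifford A χ θ hθ
    have hinv : ∀ g, conjIrr A θ g = θ := fun g => (hT ▸ Subgroup.mem_top g : g ∈ T)
    have horb : orbit A θ = {θ} := Finset.eq_singleton_iff_unique_mem.2
      ⟨(mem_orbit A).2 ⟨1, (conjIrr_one A θ).symm⟩, fun ψ hψ => by
        obtain ⟨g, rfl⟩ := (mem_orbit A).1 hψ
        exact hinv g⟩
    simp only [horb, Finset.sum_singleton] at hval
    obtain ⟨f, hf⟩ := exists_homIrr θ (charDegree_eq_one_of_comm hAcomm θ)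
    have haA : a ∈ A := Subgroup.mem_sup_right (Subgroup.mem_zpowers a)
    apply haZ
    refine Subgroup.mem_center_iff.2 fun g => ?_
    have hkA : g * a * g⁻¹ * a⁻¹ ∈ A := Subgroup.mem_sup_left (hcom g)
    have h1 : (θ : A → ℂ) (conjN A g ⟨a, haA⟩) = (θ : A → ℂ) ⟨a, haA⟩ := congrFun (congrArg Subtype.val (hinv g)) ⟨a, haA⟩
    rw [← hf] at h1
    have h2 : f (conjN A g ⟨a, haA⟩) = f ⟨a, haA⟩ := Units.ext h1
    have h3 : f ⟨g * a * g⁻¹ * a⁻¹, hkA⟩ = 1 := by
      have : (⟨g * a * g⁻¹ * a⁻¹, hkA⟩ : A) = conjN A g ⟨a, haA⟩ * (⟨a, haA⟩ : A)⁻¹ :=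
        Subtype.ext (by simp [conjN_coe])
      rw [this, map_mul, map_inv, h2, mul_inv_cancel]
    have hval' : ∀ u : A, (χ : G → ℂ) u = (e : ℂ) * (f u : ℂ) := fun u => by rw [hval u, ← hf]; rfl
    have h4 : (χ : G → ℂ) (g * a * g⁻¹ * a⁻¹) = (χ : G → ℂ) 1 := by
      have e1 := hval' ⟨g * a * g⁻¹ * a⁻¹, hkA⟩
      have e2 := hval' 1
      rw [h3] at e1
      rw [map_one] at e2
      exact e1.trans e2.symm
    have h5 := (hK _).2 h4
    rw [hKb, Subgroup.mem_bot, mul_inv_eq_one, mul_inv_eq_iff_eq_mul] at h5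
    exact h5
  have hmem : ∀ g, g ∈ T ↔ conjIrr A θ g = θ := fun g => Iff.rfl
  have hAT := CliffordCorr.le_inertia A θ hmem
  haveI : Fintype T := Fintype.ofFinite T
  obtain ⟨ψ, hψ1, hψ2⟩ := CliffordCorr.exists_corr A θ hmem hAT χ hθ
  have hind := (CliffordCorr.clifford_corr A θ hmem hAT ψ hψ2 χ hψ1).1
  have hlt : Nat.card T < n := by
    rw [← hn]
    exact lt_of_le_of_ne T.card_le_card_group fun h => hTne (Subgroup.eq_top_of_card_eq T h)
  obtain ⟨B, lam, hB⟩ := ih _ hlt T inferInstance rfl ψ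
  refine ⟨B.map T.subtype, lam.comp (Subgroup.equivMapOfInjective B T.subtype T.subtype_injective).symm.toMonoidHom, ?_⟩
  rw [← hind, hB]
  refine indFun_trans T B _ _ fun b => ?_
  congr 1
  show lam _ = lam b
  congr 1
  exact (Subgroup.equivMapOfInjective B T.subtype T.subtype_injective).symm_apply_eq.2 (Subtype.ext rfl)

end CfsgLib.BrauerInd
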