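import Mathlib
import Cfsg.Agent.Lib.BrauerInd.Local
import Cfsg.Agent.Lib.BrauerInd.Monomial

/-!
Brauer's induction theorem and the characterisation of generalized characters.
-/

set_option autoImplicit false

namespace CfsgLib.BrauerInd

open Cfsg CfsgLib.Chars

universe u

variable {G : Type u} [Group G]

/-- Elementary for some prime. -/
def IsElem (E : Type u) [Group E] : Prop := ∃ p : ℕ, p.Prime ∧ IsElementary p E

theorem isElementary_subgroup [Finite G] {p : ℕ} (hp : p.Prime) (h : IsElementary p G) (B : Subgroup G) :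
    IsElementary p B := by
  obtain ⟨x, hxc, hxo, k, hk⟩ := h
  haveI : (Subgroup.zpowers x).Normal := ⟨fun a ha g => by
    obtain ⟨j, rfl⟩ := Subgroup.mem_zpowers_iff.1 ha
    rw [Subgroup.mem_center_iff.1 (Subgroup.zpow_mem _ hxc j) g, mul_inv_cancel_right]
    exact Subgroup.zpow_mem _ (Subgroup.mem_zpowers x) j⟩
  have hc : IsCyclic ((Subgroup.zpowers x).subgroupOf B) :=
    isCyclic_of_injective ((B.subtype.comp ((Subgroup.zpowers x).subgroupOf B).subtype).codRestrict (Subgroup.zpowers x) fun y => y.2)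
      fun a b e => Subtype.ext (Subtype.ext (congrArg Subtype.val e :))
  obtain ⟨⟨y, hy⟩, hgen⟩ := hc.exists_generator
  have hz : (Subgroup.zpowers x).subgroupOf B = Subgroup.zpowers y := le_antisymm (fun w hw => by
    obtain ⟨j, hj⟩ := hgen ⟨w, hw⟩
    exact ⟨j, congrArg Subtype.val hj⟩) (Subgroup.zpowers_le.2 hy)
  refine ⟨y, Subgroup.mem_center_iff.2 fun g => Subtype.ext ?_, ?_, ?_⟩
  · have hyc : (y : G) ∈ Subgroup.center G := by
      obtain ⟨j, hj⟩ := Subgroup.mem_zpowers_iff.1 (Subgroup.mem_subgroupOf.1 hy)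
      exact hj ▸ Subgroup.zpow_mem _ hxc j
    exact Subgroup.mem_center_iff.1 hyc g
  · refine hxo.coprime_dvd_left ?_
    rw [← Subgroup.orderOf_coe, ← Subgroup.orderOf_mk (y : G) (Subgroup.mem_subgroupOf.1 hy), ← Nat.card_zpowers x]
    exact orderOf_dvd_natCard _
  · have hd : (Subgroup.zpowers x).relIndex B ∣ (Subgroup.zpowers x).index := Subgroup.relIndex_dvd_index_of_normal _ _
    rw [hk] at hd
    obtain ⟨j, -, hj⟩ := (Nat.dvd_prime_pow hp).1 hd
    exact ⟨j, by rw [← hz]; exact hj⟩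

theorem isElementary_equiv {H : Type u} [Group H] {p : ℕ} (e : G ≃* H) (h : IsElementary p G) : IsElementary p H := by
  obtain ⟨x, hxc, hxo, k, hk⟩ := h
  refine ⟨e x, Subgroup.mem_center_iff.2 fun g => ?_, by rw [MulEquiv.orderOf_eq]; exact hxo, k, ?_⟩
  · obtain ⟨g, rfl⟩ := e.surjective g
    rw [← map_mul, ← map_mul, Subgroup.mem_center_iff.1 hxc g]
  · rw [← hk, ← Subgroup.index_map_equiv (Subgroup.zpowers x) e, MonoidHom.map_zpowers]
    rfl

theorem isNilpotent_of_isElementary [Finite G] {p : ℕ} (hp : p.Prime) (h : IsElementary p G) : Group.IsNilpotent G := by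
  haveI : Fact p.Prime := ⟨hp⟩
  obtain ⟨x, hxc, -, k, hk⟩ := h
  have hle : Subgroup.zpowers x ≤ Subgroup.center G := Subgroup.zpowers_le.2 hxc
  have hd : (Subgroup.center G).index ∣ p ^ k := hk ▸ Subgroup.index_dvd_of_le hle
  obtain ⟨j, -, hj⟩ := (Nat.dvd_prime_pow hp).1 hd
  have hq : IsPGroup p (G ⧸ Subgroup.center G) := IsPGroup.of_card (n := j) hj
  exact Group.of_quotient_center_nilpotent hq.isNilpotent

variable [Fintype G]

/-- The integral span of characters induced from elementary subgroups. -/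
noncomputable def elemSpan (G : Type u) [Group G] [Fintype G] : AddSubgroup (G → ℂ) :=
  AddSubgroup.closure (Set.range fun t : {t : (E : Subgroup G) × (E → ℂ) // IsElem t.1 ∧ IsCharacter t.1 t.2} => indFun t.1.1 t.1.2)

theorem bSpanZ_le {p : ℕ} (hp : p.Prime) : bSpanZ G p ≤ elemSpan G := by
  refine (AddSubgroup.closure_le _).2 ?_
  rintro _ ⟨t, rfl⟩
  exact AddSubgroup.subset_closure ⟨⟨t.1, ⟨p, hp, t.2.1⟩, t.2.2⟩, rfl⟩

theorem one_mem_elemSpan : (fun _ : G => (1 : ℂ)) ∈ elemSpan G := by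
  let φ : ℤ →+ (G → ℂ) :=
    { toFun := fun m _ => (m : ℂ)
      map_zero' := funext fun _ => Int.cast_zero
      map_add' := fun a b => funext fun _ => Int.cast_add a b }
  let T : AddSubgroup ℤ := (elemSpan G).comap φ
  obtain ⟨d, hd⟩ := Int.subgroup_cyclic T
  have hd1 : d.natAbs = 1 := by
    by_contra hne
    obtain ⟨q, hq, hqd⟩ := Nat.exists_prime_and_dvd hne
    obtain ⟨m, hm, hmem⟩ := local_brauer (G := G) q hq
    have hmT : m ∈ T := bSpanZ_le hq hmem
    rw [hd, ← AddSubgroup.zmultiples_eq_closure, Int.mem_zmultiples_iff] at hmT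
    exact hm ((Int.natCast_dvd.2 hqd).trans hmT)
  have h1 : (1 : ℤ) ∈ T := by
    rw [hd, ← AddSubgroup.zmultiples_eq_closure, Int.mem_zmultiples_iff]
    exact Int.natAbs_dvd.1 (by rw [hd1]; exact one_dvd _)
  have h2 : φ 1 ∈ elemSpan G := h1
  simpa [φ] using h2

theorem isGeneralized_closure {ι : Type*} {F : ι → G → ℂ} (h : ∀ i, IsGeneralizedCharacter G (F i)) {f : G → ℂ}
    (hf : f ∈ AddSubgroup.closure (Set.range F)) : IsGeneralizedCharacter G f := by
  induction hf using AddSubgroup.closure_induction with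
  | mem a ha => obtain ⟨i, rfl⟩ := ha; exact h i
  | zero => exact ⟨0, 0, isCharacter_zero, isCharacter_zero, by simp⟩
  | add a b _ _ ha hb =>
    obtain ⟨a₁, a₂, ha1, ha2, rfl⟩ := ha
    obtain ⟨b₁, b₂, hb1, hb2, rfl⟩ := hb
    exact ⟨a₁ + b₁, a₂ + b₂, IsCharacter.add ha1 hb1, IsCharacter.add ha2 hb2, by abel⟩
  | neg a _ ha =>
    obtain ⟨a₁, a₂, ha1, ha2, rfl⟩ := ha
    exact ⟨a₂, a₁, ha2, ha1, by abel⟩

/-- Brauer's characterisation of generalized characters. -/
theorem isGeneralized_of_elementary {θ : G → ℂ} (hθ : IsClassFunction G θ)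
    (hE : ∀ (E : Subgroup G) (p : ℕ), p.Prime → IsElementary p E → IsGeneralizedCharacter E (fun e : E => θ e)) :
    IsGeneralizedCharacter G θ := by
  obtain ⟨l, hl⟩ := exists_list_of_mem_closure (one_mem_elemSpan (G := G))
  have hmem : θ ∈ AddSubgroup.closure (Set.range fun t : {t : (E : Subgroup G) × (E → ℂ) // IsElem t.1 ∧ IsCharacter t.1 t.2} =>
      indFun t.1.1 (fun e => t.1.2 e * θ e)) := by
    suffices h : (l.map fun t => (t.2 : ℂ) • indFun t.1.1.1 t.1.1.2).sum * θ ∈ AddSubgroup.closure (Set.range fun t : {t : (E : Subgroup G) × (E → ℂ) // IsElem t.1 ∧ IsCharacter t.1 t.2} =>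
        indFun t.1.1 (fun e => t.1.2 e * θ e)) by
      rw [← hl, show (fun _ : G => (1 : ℂ)) * θ = θ from funext fun g => one_mul _] at h
      exact h
    clear hl
    induction l with
    | nil => simp only [List.map_nil, List.sum_nil, zero_mul]; exact zero_mem _
    | cons a t ih =>
      simp only [List.map_cons, List.sum_cons, add_mul]
      refine add_mem ?_ ih
      rw [Int.cast_smul_eq_zsmul, smul_mul_assoc]
      refine zsmul_mem ?_ _
      rw [indFun_mul _ _ hθ]
      exact AddSubgroup.subset_closure (Set.mem_range_self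
        (f := fun t : {t : (E : Subgroup G) × (E → ℂ) // IsElem t.1 ∧ IsCharacter t.1 t.2} => indFun t.1.1 (fun e => t.1.2 e * θ e)) a.1)
  refine isGeneralized_closure (fun t => ?_) hmem
  obtain ⟨p, hp, hel⟩ := t.2.1
  obtain ⟨A, B, hA, hB, he⟩ := hE t.1.1 p hp hel
  refine ⟨indFun t.1.1 (t.1.2 * A), indFun t.1.1 (t.1.2 * B), IsCharacter.indFun _ (IsCharacter.mul t.2.2 hA),
    IsCharacter.indFun _ (IsCharacter.mul t.2.2 hB), ?_⟩
  have hsplit : (fun e : t.1.1 => t.1.2 e * θ e) = t.1.2 * A + (-1 : ℂ) • (t.1.2 * B) := by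
    funext e
    have := congrFun he e
    simp only [Pi.sub_apply] at this
    simp only [Pi.add_apply, Pi.mul_apply, Pi.smul_apply, smul_eq_mul, this]
    ring
  rw [hsplit, indFun_add, indFun_smul, neg_one_smul, sub_eq_add_neg]

/-- Brauer's induction theorem. -/
theorem mem_elem_linear {χ : G → ℂ} (hχ : IsCharacter G χ) :
    χ ∈ AddSubgroup.closure (Set.range fun t : {t : (E : Subgroup G) × (E →* ℂˣ) // IsElem t.1} =>
      indFun t.1.1 (fun e => (t.1.2 e : ℂ))) := by
  classical
  obtain ⟨l, hl⟩ := exists_list_of_mem_closure (one_mem_elemSpan (G := G))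
  rw [show χ = (fun _ : G => (1 : ℂ)) * χ from funext fun g => (one_mul _).symm, hl]
  clear hl
  induction l with
  | nil => simp only [List.map_nil, List.sum_nil, zero_mul]; exact zero_mem _
  | cons a t ih =>
    simp only [List.map_cons, List.sum_cons, add_mul]
    refine add_mem ?_ ih
    rw [Int.cast_smul_eq_zsmul, smul_mul_assoc]
    refine zsmul_mem ?_ _
    rw [indFun_mul _ _ (IsCharacter.isClassFunction hχ)]
    obtain ⟨⟨⟨E, ψ⟩, ⟨p, hp, hel⟩, hψ⟩, n⟩ := a
    haveI : Fintype E := Fintype.ofFinite E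
    obtain ⟨l', hl'⟩ := exists_list_irr (IsCharacter.mul hψ (IsCharacter.restrict hχ E))
    show indFun E (ψ * fun h : E => χ h) ∈ _
    rw [hl', indFun_list_sum, List.map_map]
    refine list_sum_mem fun f hf => ?_
    obtain ⟨φ, -, rfl⟩ := List.mem_map.1 hf
    obtain ⟨B, lam, hB⟩ := monomial _ E (isNilpotent_of_isElementary hp hel) rfl φ
    let eB := Subgroup.equivMapOfInjective B E.subtype E.subtype_injective
    refine AddSubgroup.subset_closure ⟨⟨⟨B.map E.subtype, lam.comp eB.symm.toMonoidHom⟩,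
      ⟨p, hp, isElementary_equiv eB (isElementary_subgroup hp hel B)⟩⟩, ?_⟩
    show indFun (B.map E.subtype) _ = indFun E _
    rw [hB]
    refine (indFun_trans E B _ _ fun b => ?_).symm
    congr 1
    show lam _ = lam b
    congr 1
    exact eB.symm_apply_eq.2 (Subtype.ext rfl)

end CfsgLib.BrauerInd
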